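import Cfsg.Agent.Sylow1817.Core
import Cfsg.Agent.Classical.Linear.Card

/-!
Transitive groups on the projective line over `ZMod 17` in which the stabiliser of `∞` normalises
the translations and the number of Sylow 3-subgroups divides 136: they are the images of `SL₂(17)`
and `GL₂(17)`; their numbers of Sylow subgroups are computed.
-/

set_option autoImplicit false

namespace CfsgLib.Sylow1817

open OnePoint MulAction

/-- The hypotheses on the group. -/
structure Admissible (Y : Subgroup (Equiv.Perm P1)) : Prop where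
  transl_mem : transl ∈ Y
  trans : MulAction.IsPretransitive Y P1
  norm : ∀ y ∈ Y, y ∞ = ∞ → ∃ n : ℕ, y * transl * y⁻¹ = transl ^ n
  syl : Nat.card (Sylow 3 ↥Y) ∣ 136

theorem card_piSL_range : Nat.card piSL.range = 2448 := by
  rw [← Nat.card_congr (QuotientGroup.quotientKerEquivRange piSL).toEquiv]
  have h2 := Subgroup.card_eq_card_quotient_mul_card_subgroup piSL.ker
  rw [CfsgLib.Classical.Linear.card_sl_two] at h2
  have hc : Nat.card piSL.ker = 2 := by
    rw [ker_piSL, CfsgLib.Classical.Linear.center_sl_card, ZMod.card]; rfl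
  rw [hc, ZMod.card] at h2
  omega

theorem card_piGL_range : Nat.card piGL.range = 4896 := by
  rw [← Nat.card_congr (QuotientGroup.quotientKerEquivRange piGL).toEquiv]
  have h2 := Subgroup.card_eq_card_quotient_mul_card_subgroup piGL.ker
  rw [CfsgLib.Classical.Linear.card_gl_eq, CfsgLib.Classical.Linear.card_sl_two] at h2
  have hu : Nat.card Kˣ = 16 := by rw [Nat.card_units, Nat.card_zmod]
  have hc : Nat.card piGL.ker = 16 := by
    rw [ker_piGL, ← hu]
    rw [Matrix.GeneralLinearGroup.center_eq_range_scalar]
    refine (Nat.card_congr (Equiv.ofInjective _ ?_)).symm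
    intro a b h
    have := congrArg (fun g : GL (Fin 2) K => (g : Matrix (Fin 2) (Fin 2) K) 0 0) h
    simpa [Matrix.GeneralLinearGroup.scalar] using Units.ext (by simpa [Matrix.GeneralLinearGroup.scalar] using this)
  rw [hc, hu, ZMod.card] at h2
  omega

/-- Numbers of Sylow subgroups of quotients divide those of the group. -/
theorem card_sylow_dvd_of_surjective {G H : Type*} [Group G] [Group H] [Finite G] (p : ℕ)
    [Fact p.Prime] (f : G →* H) (hf : Function.Surjective f) :
    Nat.card (Sylow p H) ∣ Nat.card (Sylow p G) := by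
  have : Finite H := Finite.of_surjective f hf
  obtain ⟨R⟩ : Nonempty (Sylow p G) := inferInstance
  rw [Sylow.card_eq_index_normalizer R, Sylow.card_eq_index_normalizer (R.mapSurjective hf),
    ← Subgroup.index_comap_of_surjective _ hf]
  apply Subgroup.index_dvd_of_le
  intro g hg
  refine Subgroup.mem_normalizer_iff.2 ?_
  intro h
  show h ∈ (R : Subgroup G).map f ↔ f g * h * (f g)⁻¹ ∈ (R : Subgroup G).map f
  constructor
  · rintro ⟨r, hr, rfl⟩
    exact ⟨g * r * g⁻¹, (Subgroup.mem_normalizer_iff.1 hg r).1 hr, by simp⟩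
  · rintro ⟨r, hr, he⟩
    refine ⟨g⁻¹ * r * g, show g⁻¹ * r * g ∈ (R : Subgroup G) by
      simpa using (Subgroup.mem_normalizer_iff.1 ((Subgroup.normalizer _).inv_mem hg) r).1 hr, ?_⟩
    rw [map_mul, map_mul, he, map_inv]; group

/-- If a quotient has as many Sylow `p`-subgroups as the group, the kernel normalises each. -/
theorem ker_le_normalizer {G H : Type*} [Group G] [Group H] [Finite G] (p : ℕ)
    [Fact p.Prime] (f : G →* H) (hf : Function.Surjective f)
    (h : Nat.card (Sylow p H) = Nat.card (Sylow p G)) (R : Sylow p G) :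
    f.ker ≤ Subgroup.normalizer (R : Set G) := by
  have : Finite H := Finite.of_surjective f hf
  have hle : Subgroup.normalizer (R : Set G) ≤
      (Subgroup.normalizer ((R.mapSurjective hf : Sylow p H) : Set H)).comap f := by
    intro g hg
    refine Subgroup.mem_normalizer_iff.2 ?_
    intro x
    show x ∈ (R : Subgroup G).map f ↔ f g * x * (f g)⁻¹ ∈ (R : Subgroup G).map f
    constructor
    · rintro ⟨r, hr, rfl⟩
      exact ⟨g * r * g⁻¹, (Subgroup.mem_normalizer_iff.1 hg r).1 hr, by simp⟩
    · rintro ⟨r, hr, he⟩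
      refine ⟨g⁻¹ * r * g, show g⁻¹ * r * g ∈ (R : Subgroup G) by
        simpa using (Subgroup.mem_normalizer_iff.1 ((Subgroup.normalizer _).inv_mem hg) r).1 hr, ?_⟩
      rw [map_mul, map_mul, he, map_inv]; group
  have heq := Subgroup.index_comap_of_surjective
    (Subgroup.normalizer ((R.mapSurjective hf : Sylow p H) : Set H)) hf
  rw [← Sylow.card_eq_index_normalizer, h, Sylow.card_eq_index_normalizer R] at heq
  have hmul := (Subgroup.index_mul_card ((Subgroup.normalizer
    ((R.mapSurjective hf : Sylow p H) : Set H)).comap f)).trans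
      (Subgroup.index_mul_card (Subgroup.normalizer (R : Set G))).symm
  have := Subgroup.eq_of_le_of_card_ge hle
    (Nat.eq_of_mul_eq_mul_left (Nat.pos_of_ne_zero Subgroup.index_ne_zero_of_finite)
      ((congrArg (· * _) heq.symm).trans hmul)).le
  rw [this]
  intro x hx
  rw [Subgroup.mem_comap, MonoidHom.mem_ker.1 hx]
  exact one_mem _

namespace Admissible

variable {Y : Subgroup (Equiv.Perm P1)}

open scoped _root_.Classical in
theorem eq_range (hY : Admissible Y) :
    (Y = piSL.range ∨ Y = piGL.range) ∧ Good (Y ⊓ alternatingGroup P1) ∧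
      Nat.card (Sylow 3 ↥Y) = 136 := by
  have : Fact (Nat.Prime 3) := ⟨Nat.prime_three⟩
  set Z := Y ⊓ alternatingGroup P1 with hZdef
  have hY' : ∀ y ∈ Y, ∀ z ∈ Z, y * z * y⁻¹ ∈ Z := by
    intro y hy z hz
    refine Subgroup.mem_inf.2 ⟨Y.mul_mem (Y.mul_mem hy hz.1) (Y.inv_mem hy), ?_⟩
    exact (inferInstance : (alternatingGroup P1).Normal).conj_mem z hz.2 y
  have hn : (Z.subgroupOf Y).Normal := ⟨fun z hz y => hY' y y.2 z hz⟩
  have hidx : ¬ 3 ∣ (Z.subgroupOf Y).index := by
    intro h
    have hd : (Z.subgroupOf Y).index ∣ 2 := by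
      have e : Z.subgroupOf Y = (Equiv.Perm.sign.comp Y.subtype).ker := by
        ext y
        simp [hZdef, Subgroup.mem_subgroupOf, Subgroup.mem_inf]
      rw [e, Subgroup.index_ker]
      have h2 : Nat.card ℤˣ = 2 := by rw [Nat.card_eq_fintype_card]; rfl
      rw [← h2]
      exact Subgroup.card_subgroup_dvd_card _
    have := h.trans hd
    norm_num at this
  have e3 := card_sylow_eq_of_normal 3 (Z.subgroupOf Y) hidx
  have hZY : Z ≤ Y := inf_le_left
  have e3' : Nat.card (Sylow 3 ↥Z) = Nat.card (Sylow 3 ↥Y) := by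
    have he := Subgroup.subgroupOfEquivOfLe hZY
    rw [← e3]
    exact Nat.dvd_antisymm (card_sylow_dvd_of_surjective 3 he.toMonoidHom he.surjective)
      (card_sylow_dvd_of_surjective 3 he.symm.toMonoidHom he.symm.surjective)
  have htr : transl ∈ Z := ⟨hY.transl_mem, Equiv.Perm.mem_alternatingGroup.2 sign_transl⟩
  have htrans : MulAction.IsPretransitive Z P1 := by
    have hinf : ∀ p : P1, ∃ z : Z, z • (∞ : P1) = p := by
      -- some conjugate of the translation moves `∞`
      obtain ⟨y, hy⟩ := hY.trans.exists_smul_eq ((0 : K) : P1) (∞ : P1)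
      set c : Z := ⟨(y : Equiv.Perm P1) * transl * (y : Equiv.Perm P1)⁻¹, hY' y y.2 _ htr⟩
      have hc : c • (∞ : P1) ≠ ∞ := by
        intro h
        have h' : (y : Equiv.Perm P1) (transl ((y : Equiv.Perm P1).symm ∞)) = ∞ := h
        have h0 : (y : Equiv.Perm P1).symm ∞ = ((0 : K) : P1) := by
          rw [Equiv.symm_apply_eq]; exact hy.symm
        rw [h0, transl_coe] at h'
        have := (y : Equiv.Perm P1).injective (h'.trans hy.symm)
        exact absurd (coe_injective this) (by decide)
      intro p
      rcases p with _ | x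
      · exact ⟨1, one_smul _ _⟩
      · rcases hd : c • (∞ : P1) with _ | d
        · exact absurd hd hc
        · refine ⟨⟨transl ^ (x - d).val, pow_mem htr _⟩ * c, ?_⟩
          rw [mul_smul, hd]
          show (transl ^ (x - d).val) (d : P1) = _
          rw [transl_pow_coe, ZMod.natCast_zmod_val, add_sub_cancel]
          rfl
    refine ⟨fun p q => ?_⟩
    obtain ⟨a, ha⟩ := hinf p
    obtain ⟨b, hb⟩ := hinf q
    exact ⟨b * a⁻¹, by rw [mul_smul, ← ha, inv_smul_smul, hb]⟩
  have hgood : Good Z :=
    ⟨htr, htrans, fun y hy => hY.norm y hy.1, fun y hy => Equiv.Perm.mem_alternatingGroup.1 hy.2,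
      e3' ▸ hY.syl⟩
  have hZeq : Z = piSL.range := Subgroup.eq_of_le_of_card_ge hgood.le_range
    (by rw [card_piSL_range, hgood.main_count.1])
  have hSG : piSL.range ≤ piGL.range := by
    rintro _ ⟨g, rfl⟩
    exact ⟨_, rfl⟩
  refine ⟨?_, hgood, e3' ▸ hgood.main_count.2.1⟩
  by_cases hYZ : Y = Z
  · exact Or.inl (hYZ.trans hZeq)
  · right
    have hsub : ∀ y ∈ Y, y ∈ piGL.range := by
      intro y hy
      obtain ⟨z, hz⟩ := htrans.exists_smul_eq (y ∞) (∞ : P1)
      have h1 : ((z : Equiv.Perm P1) * y) ∞ = ∞ := hz
      obtain ⟨n, hn⟩ := hY.norm _ (mul_mem (hZY z.2) hy) h1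
      obtain ⟨a, b, ha, hab⟩ := exists_affine _ h1 n hn
      have h2 := (affine_mem _ a b ha h1 hab).1
      have h3 : (z : Equiv.Perm P1) ∈ piGL.range := hSG (hZeq ▸ z.2)
      simpa using mul_mem (inv_mem h3) h2
    refine Subgroup.eq_of_le_of_card_ge hsub ?_
    rw [card_piGL_range]
    have h1 := Subgroup.card_eq_card_quotient_mul_card_subgroup (Z.subgroupOf Y)
    rw [Nat.card_congr (Subgroup.subgroupOfEquivOfLe hZY).toEquiv, hgood.main_count.1] at h1
    have h2 : 2 ≤ Nat.card (↥Y ⧸ Z.subgroupOf Y) := by
      rw [← Subgroup.index_eq_card]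
      by_contra h
      apply hYZ
      have h01 : (Z.subgroupOf Y).index = 1 := by
        have : (Z.subgroupOf Y).index ≠ 0 := Subgroup.index_ne_zero_of_finite
        omega
      rw [Subgroup.index_eq_one, Subgroup.subgroupOf_eq_top] at h01
      exact le_antisymm h01 hZY
    rw [h1]
    omega

theorem card_sylow_seventeen (hY : Admissible Y) : 18 ∣ Nat.card (Sylow 17 ↥Y) := by
  have := hY.trans
  set t : Y := ⟨transl, hY.transl_mem⟩ with ht
  have h17 : ∀ j : ℕ, j ≠ 0 → j < 17 → (transl ^ j) ((0 : K) : P1) ≠ ((0 : K) : P1) := by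
    intro j hj0 hj h
    rw [transl_pow_coe, coe_eq_coe, zero_add] at h
    have := (ZMod.natCast_eq_zero_iff j 17).1 h
    exact absurd (Nat.le_of_dvd (Nat.pos_of_ne_zero hj0) this) (by omega)
  have hto : orderOf t = 17 := by rw [← orderOf_transl, ht, ← Subgroup.orderOf_coe]
  have hcardY : Nat.card Y = 2448 ∨ Nat.card Y = 4896 := by
    rcases hY.eq_range.1 with h | h
    · left; rw [h, card_piSL_range]
    · right; rw [h, card_piGL_range]
  have hSylcard : Nat.card (Subgroup.zpowers t) = 17 ^ (Nat.card Y).factorization 17 := by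
    rw [Nat.card_zpowers, hto]
    have : (Nat.card Y).factorization 17 = 1 := by
      rcases hcardY with h | h <;> rw [h]
      · rw [show (2448 : ℕ) = 17 ^ 1 * 144 by norm_num, Nat.factorization_mul (by norm_num) (by norm_num),
          Finsupp.add_apply, Nat.factorization_pow, Finsupp.smul_apply,
          (show Nat.Prime 17 by norm_num).factorization_self,
          Nat.factorization_eq_zero_of_not_dvd (by norm_num)]
        rfl
      · rw [show (4896 : ℕ) = 17 ^ 1 * 288 by norm_num, Nat.factorization_mul (by norm_num) (by norm_num),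
          Finsupp.add_apply, Nat.factorization_pow, Finsupp.smul_apply,
          (show Nat.Prime 17 by norm_num).factorization_self,
          Nat.factorization_eq_zero_of_not_dvd (by norm_num)]
        rfl
    rw [this, pow_one]
  set P := Sylow.ofCard (p := 17) (Subgroup.zpowers t) hSylcard
  rw [Sylow.card_eq_index_normalizer P]
  have hle : Subgroup.normalizer ((Subgroup.zpowers t : Subgroup Y) : Set Y) ≤
      MulAction.stabilizer Y (∞ : P1) := by
    intro g hg
    have h1 := (Subgroup.mem_normalizer_iff''.1 hg t).1 (Subgroup.mem_zpowers t)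
    rw [← mem_powers_iff_mem_zpowers] at h1
    obtain ⟨j, hj⟩ := h1
    -- `t` fixes `g • ∞`
    rw [MulAction.mem_stabilizer_iff]
    have h2 : (t ^ j) • (∞ : P1) = ∞ := pow_smul_fix (show t • (∞ : P1) = ∞ from transl_infty) j
    have hj' : t ^ j = g⁻¹ * t * g := hj
    rw [hj', mul_smul, mul_smul, inv_smul_eq_iff] at h2
    rcases hc : g • (∞ : P1) with _ | c
    · rfl
    · rw [hc] at h2
      have := coe_injective (X := K) ((transl_coe c).symm.trans h2)
      simp at this
  have := Subgroup.index_dvd_of_le hle
  rwa [MulAction.index_stabilizer_of_transitive, card_P1] at this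

open scoped _root_.Classical in
theorem card_sylow_two (hY : Admissible Y) : Nat.card (Sylow 2 ↥Y) = 153 := by
  have : Fact (Nat.Prime 2) := ⟨Nat.prime_two⟩
  have := hY.trans
  obtain ⟨hcases, hgood, -⟩ := hY.eq_range
  have hlin : ∀ y : Y, y • (∞ : P1) = ∞ → y • ((0 : K) : P1) = ((0 : K) : P1) →
      ∃ a : K, a ≠ 0 ∧ ∀ x : K, y • (x : P1) = ((a * x : K) : P1) := by
    intro y h1 h0
    obtain ⟨n, hn⟩ := hY.norm y y.2 h1
    obtain ⟨a, b, ha, hab⟩ := exists_affine _ h1 n hn
    have hb : b = 0 := by
      have := coe_injective ((hab 0).symm.trans h0)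
      simpa using this
    exact ⟨a, ha, fun x => (hab x).trans (by rw [hb, add_zero])⟩
  -- the setwise stabiliser of `{∞, 0}`
  let pair : P1 → Prop := fun p => p = ∞ ∨ p = ((0 : K) : P1)
  let S : Subgroup Y :=
    { carrier := {y | ∀ p, pair p → pair (y • p)}
      one_mem' := fun p hp => by rwa [one_smul]
      mul_mem' := fun {a b} ha hb p hp => by rw [mul_smul]; exact ha _ (hb p hp)
      inv_mem' := fun {a} ha p hp => by
        -- `a` permutes the pair
        by_cases h1 : a • (∞ : P1) = p
        · left; rw [← h1, inv_smul_smul]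
        by_cases h2 : a • ((0 : K) : P1) = p
        · right; rw [← h2, inv_smul_smul]
        exfalso
        have e1 := ha ∞ (Or.inl rfl)
        have e2 := ha _ (Or.inr rfl)
        have hne : a • (∞ : P1) ≠ a • ((0 : K) : P1) := fun h =>
          infty_ne_coe _ (MulAction.injective a h)
        rcases hp with rfl | rfl
        · exact hne ((e1.resolve_left h1).trans (e2.resolve_left h2).symm)
        · exact hne ((e1.resolve_right h1).trans (e2.resolve_right h2).symm) }
  obtain ⟨W0, hWinf, hW0, hW⟩ := hgood.exists_inv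
  set W : Y := ⟨(W0 : Equiv.Perm P1), W0.2.1⟩
  have hWS : W ∈ S := by
    rintro p (rfl | rfl)
    · right; exact hWinf
    · left; exact hW0
  have hW' : ∀ x : K, x ≠ 0 → W • (x : P1) = ((x⁻¹ : K) : P1) := hW
  have hWinf' : W • (∞ : P1) = ((0 : K) : P1) := hWinf
  have hW0' : W • ((0 : K) : P1) = ∞ := hW0
  let A := MulAction.stabilizer S (∞ : P1)
  have horbS : MulAction.orbit S (∞ : P1) = ({∞, ((0 : K) : P1)} : Set P1) := by
    ext p
    constructor
    · rintro ⟨s, rfl⟩
      exact s.2 ∞ (Or.inl rfl)
    · rintro (rfl | rfl)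
      · exact MulAction.mem_orbit_self _
      · exact ⟨⟨W, hWS⟩, hWinf⟩
  -- order of the stabiliser of two points
  let A1 := MulAction.stabilizer Y (∞ : P1)
  let B := MulAction.stabilizer A1 ((0 : K) : P1)
  have hB : Nat.card Y = 306 * Nat.card B := by
    rw [← Subgroup.index_mul_card A1, MulAction.index_stabilizer_of_transitive, card_P1,
      ← Subgroup.index_mul_card B, MulAction.index_stabilizer]
    have horb : MulAction.orbit A1 ((0 : K) : P1) = {∞}ᶜ := by
      ext p
      constructor
      · rintro ⟨a, rfl⟩ h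
        exact coe_ne_infty (0 : K) (MulAction.injective (a : Y)
          ((Set.mem_singleton_iff.1 h).trans a.2.symm))
      · intro hp
        rcases p with _ | c
        · exact absurd rfl hp
        · refine ⟨⟨⟨transl ^ c.val, pow_mem hY.transl_mem _⟩, transl_pow_infty _⟩, ?_⟩
          show (transl ^ c.val) ((0 : K) : P1) = _
          rw [transl_pow_coe, ZMod.natCast_zmod_val, zero_add]
          rfl
    rw [horb, Set.ncard_compl, Set.ncard_singleton, card_P1]
    ring
  have hAB : Nat.card A = Nat.card B := by
    refine Nat.card_congr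
      { toFun := fun s => ⟨⟨((s : S) : Y), s.2⟩, ?_⟩
        invFun := fun b => ⟨⟨((b : A1) : Y), ?_⟩, (b : A1).2⟩
        left_inv := fun s => rfl
        right_inv := fun b => rfl }
    · have h := (s : S).2 ((0 : K) : P1) (Or.inr rfl)
      rcases h with h | h
      · exact absurd (MulAction.injective ((s : S) : Y) (h.trans s.2.symm)) (coe_ne_infty _)
      · exact h
    · rintro p (rfl | rfl)
      · left; exact (b : A1).2
      · right; exact b.2
  have hScard : Nat.card S = 2 * Nat.card B := by
    rw [← Subgroup.index_mul_card A, MulAction.index_stabilizer, horbS, hAB,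
      Set.ncard_pair (infty_ne_coe _)]
  have hidx : S.index = 153 := by
    have h1 := Subgroup.index_mul_card S
    rw [hScard, hB] at h1
    have := Nat.card_pos (α := B)
    nlinarith
  have hcardY : Nat.card Y = 2448 ∨ Nat.card Y = 4896 := by
    rcases hcases with h | h
    · left; rw [h, card_piSL_range]
    · right; rw [h, card_piGL_range]
  have hS2 : Nat.card S = 2 ^ (Nat.card Y).factorization 2 := by
    have h1 := Subgroup.index_mul_card S
    rw [hidx] at h1
    have hp : Nat.Prime 2 := Nat.prime_two
    rcases hcardY with h | h <;> rw [h] at h1 ⊢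
    · rw [show (2448 : ℕ) = 2 ^ 4 * 153 by norm_num, Nat.factorization_mul (by norm_num) (by norm_num),
        Finsupp.add_apply, Nat.factorization_pow, Finsupp.smul_apply, hp.factorization_self,
        Nat.factorization_eq_zero_of_not_dvd (by norm_num)]
      simp only [smul_eq_mul, mul_one, add_zero]
      omega
    · rw [show (4896 : ℕ) = 2 ^ 5 * 153 by norm_num, Nat.factorization_mul (by norm_num) (by norm_num),
        Finsupp.add_apply, Nat.factorization_pow, Finsupp.smul_apply, hp.factorization_self,
        Nat.factorization_eq_zero_of_not_dvd (by norm_num)]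
      simp only [smul_eq_mul, mul_one, add_zero]
      omega
  rw [Sylow.card_eq_index_normalizer (Sylow.ofCard S hS2)]
  refine (congrArg Subgroup.index ?_).trans hidx
  refine le_antisymm (fun g hg => ?_) Subgroup.le_normalizer
  have hg' : ∀ s, s ∈ S ↔ g * s * g⁻¹ ∈ S := Subgroup.mem_normalizer_iff.1 hg
  -- elements of `S`
  have hform : ∀ s ∈ S, (s • (∞ : P1) = ∞ ∧ s • ((0 : K) : P1) = ((0 : K) : P1)) ∨
      (s • (∞ : P1) = ((0 : K) : P1) ∧ s • ((0 : K) : P1) = ∞) := by
    intro s hs
    rcases hs ∞ (Or.inl rfl) with h1 | h1 <;> rcases hs _ (Or.inr rfl) with h2 | h2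
    · exact absurd (MulAction.injective s (h1.trans h2.symm)) (infty_ne_coe _)
    · exact Or.inl ⟨h1, h2⟩
    · exact Or.inr ⟨h1, h2⟩
    · exact absurd (MulAction.injective s (h1.trans h2.symm)) (infty_ne_coe _)
  obtain ⟨m0, hminf, hm⟩ := hgood.exists_mul_mem (-1) (by decide)
  obtain ⟨d0, hdinf, hd⟩ := hgood.exists_mul_mem 2 (by decide)
  set m : Y := ⟨(m0 : Equiv.Perm P1), m0.2.1⟩
  set d : Y := ⟨(d0 : Equiv.Perm P1), d0.2.1⟩
  have hminf' : m • (∞ : P1) = ∞ := hminf
  have hm' : ∀ x : K, m • (x : P1) = (((-1) * x : K) : P1) := hm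
  have hdinf' : d • (∞ : P1) = ∞ := hdinf
  have hd' : ∀ x : K, d • (x : P1) = ((2 * x : K) : P1) := hd
  have hmS : m ∈ S := by
    rintro p (rfl | rfl)
    · left; exact hminf
    · right; rw [hm', mul_zero]
  have hdS : d ∈ S := by
    rintro p (rfl | rfl)
    · left; exact hdinf
    · right; rw [hd', mul_zero]
  have hext : ∀ u v : Y, (∀ p : P1, u • p = v • p) → u = v := fun u v h =>
    Subtype.ext (Equiv.ext h)
  have hWm : W * m = m * W := hext _ _ fun p => by
    rw [mul_smul, mul_smul]
    rcases p with _ | x
    · show W • m • (∞ : P1) = m • W • (∞ : P1)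
      rw [hminf', hWinf', hm', mul_zero]
    · show W • m • (x : P1) = m • W • (x : P1)
      by_cases hx : x = 0
      · subst hx; rw [hm', mul_zero, hW0', hminf']
      · rw [hm', hW' x hx, hm', hW' _ (mul_ne_zero (by decide) hx)]
        congr 1
        field_simp
  have hcen : ∀ s ∈ S, s * m = m * s := by
    have hB : ∀ s : Y, s • (∞ : P1) = ∞ → s • ((0 : K) : P1) = ((0 : K) : P1) → s * m = m * s := by
      intro s h1 h0
      obtain ⟨a, -, ha⟩ := hlin s h1 h0
      refine hext _ _ fun p => ?_
      rw [mul_smul, mul_smul]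
      rcases p with _ | x
      · show s • m • (∞ : P1) = m • s • (∞ : P1)
        rw [hminf', h1, hminf']
      · show s • m • (x : P1) = m • s • (x : P1)
        rw [hm', ha, ha, hm']
        congr 1
        ring
    intro s hs
    rcases hform s hs with h | h
    · exact hB s h.1 h.2
    · have := hB (W * s) (by rw [mul_smul, h.1, hW0']) (by rw [mul_smul, h.2, hWinf'])
      have h2 : W * (s * m) = W * (m * s) := by
        rw [← mul_assoc, this, ← mul_assoc, ← mul_assoc, hWm]
      exact mul_left_cancel h2
  set z := g * m * g⁻¹ with hz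
  have hzS : z ∈ S := (hg' m).1 hmS
  have hzc : ∀ s ∈ S, z * s = s * z := by
    intro s hs
    have h1 : g⁻¹ * s * g ∈ S := (hg' _).2 (by simpa [mul_assoc] using hs)
    have h2 := hcen _ h1
    calc z * s = g * (m * (g⁻¹ * s * g)) * g⁻¹ := by rw [hz]; group
      _ = g * (g⁻¹ * s * g * m) * g⁻¹ := by rw [h2]
      _ = s * z := by rw [hz]; group
  have hzm : z = m := by
    have hz1 : z ≠ 1 := by
      intro h
      have hm1 : m = 1 := by
        calc m = g⁻¹ * z * g := by rw [hz]; group
          _ = 1 := by rw [h]; group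
      have := congrArg (fun u : Y => u • ((1 : K) : P1)) hm1
      simp only [hm', one_smul] at this
      exact absurd (coe_injective this) (by decide)
    rcases hform z hzS with h | h
    · have hzinf := h.1
      obtain ⟨a, ha0, ha⟩ := hlin z h.1 h.2
      have := congrArg (fun u : Y => u • ((1 : K) : P1)) (hzc W hWS)
      simp only [mul_smul] at this
      rw [hW' 1 one_ne_zero, inv_one, ha, mul_one, hW' a ha0] at this
      have h2 : a = -1 := by
        have hsq : a * a = 1 := by
          have e := coe_injective this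
          nth_rewrite 1 [e]
          exact inv_mul_cancel₀ ha0
        rcases mul_self_eq_one_iff.1 hsq with h | h
        · exfalso
          apply hz1
          refine hext _ _ fun p => ?_
          rcases p with _ | x
          · exact hzinf.trans (one_smul _ _).symm
          · exact (ha x).trans ((congrArg (fun c : K => (c : P1)) (by rw [h, one_mul] : a * x = x)).trans (one_smul _ _).symm)
        · exact h
      refine hext _ _ fun p => ?_
      rcases p with _ | x
      · exact h.1.trans hminf'.symm
      · exact (ha x).trans (by rw [h2]; exact (hm' x).symm)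
    · exfalso
      obtain ⟨a, ha0, ha⟩ := hlin (W * z) (by rw [mul_smul, h.1, hW0']) (by rw [mul_smul, h.2, hWinf'])
      have hz' : ∀ x : K, x ≠ 0 → z • (x : P1) = (((a * x)⁻¹ : K) : P1) := by
        intro x hx
        have h1 := ha x
        rw [mul_smul] at h1
        have h2 := congrArg (fun p => W • p) h1
        rw [hW' _ (mul_ne_zero ha0 hx)] at h2
        rw [← h2, ← mul_smul]
        have hWW : W * W = 1 := by
          have := (hgood.swap_sq hWinf hW0).1
          rw [pow_two] at this
          exact Subtype.ext (congrArg Subtype.val this :)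
        rw [hWW, one_smul]
      have := congrArg (fun u : Y => u • ((1 : K) : P1)) (hzc d hdS)
      simp only [mul_smul] at this
      rw [hd', mul_one, hz' 2 (by decide), hz' 1 one_ne_zero, hd'] at this
      have e := coe_injective this
      rw [mul_one, mul_inv, mul_comm (2 : K)] at e
      have e2 := mul_left_cancel₀ (inv_ne_zero ha0) e
      exact absurd e2 (by decide +kernel)
  have hfix : ∀ p : P1, m • p = p → pair p := by
    intro p hp
    rcases p with _ | x
    · exact Or.inl rfl
    · right
      have := coe_injective ((hm' x).symm.trans hp)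
      congr 1
      have h2 : (2 : K) * x = 0 := by linear_combination -this
      exact (mul_eq_zero.1 h2).resolve_left (by decide)
  intro p hp
  apply hfix
  have : m • p = p := by
    rcases hp with rfl | rfl
    · exact hminf'
    · rw [hm', mul_zero]
  calc m • g • p = (z * g) • p := by rw [mul_smul, hzm]
    _ = (g * m) • p := by rw [hz]; congr 1; group
    _ = g • p := by rw [mul_smul, this]

end Admissible

end CfsgLib.Sylow1817
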