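import Cfsg.Agent.Sylow1817.Count
import Cfsg.Agent.ClassSizes.ConjRange

/-!
The groups satisfying `Good` lie in the image of `SL₂(17)` and have order 2448.
-/

set_option autoImplicit false

namespace CfsgLib.Sylow1817

open OnePoint MulAction

/-- A normal subgroup of index prime to `p` has the same number of Sylow `p`-subgroups. -/
theorem card_sylow_eq_of_normal {G : Type*} [Group G] [Finite G] (p : ℕ) [Fact p.Prime]
    (N : Subgroup G) [N.Normal] (h : ¬ p ∣ N.index) :
    Nat.card (Sylow p ↥N) = Nat.card (Sylow p G) := by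
  have hle : ∀ P : Sylow p G, (P : Subgroup G) ≤ N := by
    intro P x hx
    rw [← QuotientGroup.eq_one_iff, ← orderOf_eq_one_iff]
    obtain ⟨k, hk⟩ := P.isPGroup' ⟨x, hx⟩
    have h1 : orderOf (x : G ⧸ N) ∣ p ^ k := by
      apply orderOf_dvd_of_pow_eq_one
      rw [← QuotientGroup.mk_pow, show x ^ p ^ k = 1 from congrArg Subtype.val hk]
      rfl
    obtain ⟨i, -, hi⟩ := (Nat.dvd_prime_pow Fact.out).1 h1
    have h2 : p ^ i ∣ N.index := by
      rw [← hi, Subgroup.index_eq_card]; exact orderOf_dvd_natCard _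
    rcases i with _ | i
    · exact hi
    · exact absurd ((dvd_pow_self p (by omega)).trans h2) h
  refine (Nat.card_eq_of_bijective (fun P : Sylow p G => P.subtype (hle P)) ⟨?_, ?_⟩).symm
  · intro P Q hPQ
    apply Sylow.ext
    have := congrArg (fun R : Sylow p ↥N => (R : Subgroup ↥N).map N.subtype) hPQ
    simp only [Sylow.coe_subtype, Subgroup.subgroupOf_map_subtype] at this
    rwa [inf_eq_left.2 (hle P), inf_eq_left.2 (hle Q)] at this
  · intro R
    obtain ⟨P, hP⟩ := (R.isPGroup'.map N.subtype).exists_le_sylow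
    refine ⟨P, Sylow.ext (R.is_maximal' (P.subtype (hle P)).isPGroup' ?_)⟩
    rw [Sylow.coe_subtype]
    intro x hx
    exact hP ⟨x, hx, rfl⟩

namespace Good

variable {Z : Subgroup (Equiv.Perm P1)}

open scoped Classical in
/-- The main count: order 2448, 136 Sylow 3-subgroups, fixed-point-free elements of 3-power order. -/
lemma main_count (hZ : Good Z) :
    Nat.card Z = 2448 ∧ Nat.card (Sylow 3 ↥Z) = 136 ∧
      ∀ y : Z, (∀ p : P1, y • p ≠ p) → y ^ 9 = 1 := by
  obtain ⟨j, hj3, hN⟩ := hZ.exists_sub_dvd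
  let _ : Fintype Z := Fintype.ofFinite _
  have : Fact (Nat.Prime 3) := ⟨Nat.prime_three⟩
  obtain ⟨hs1, hs2⟩ := hZ.sum_fix
  rw [← Nat.card_eq_fintype_card, hN] at hs1 hs2
  set D := Finset.univ.filter fun y : Z => (fixSet y).card = 0 with hD
  set T := Finset.univ.filter fun y : Z => y ^ 9 = 1 ∧ y ≠ 1 with hT
  set S := Finset.univ.filter fun y : Z => y ≠ 1 with hS
  have hone : (fixSet (1 : Z)).card = 18 := by
    rw [show fixSet (1 : Z) = Finset.univ from Finset.eq_univ_iff_forall.2 fun p =>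
      mem_fixSet.2 (one_smul _ p), Finset.card_univ, ← Nat.card_eq_fintype_card, card_P1]
  -- counting fixed points
  have hsplit : ∀ f : Z → ℕ, ∑ y : Z, f y = f 1 + ∑ y ∈ S, f y := by
    intro f
    rw [hS, Finset.filter_ne' Finset.univ (1 : Z), Finset.add_sum_erase _ f (Finset.mem_univ _)]
  have hcard : S.card + 1 = 306 * 2 ^ j := by
    have := hsplit fun _ => 1
    simp only [Finset.sum_const, smul_eq_mul, mul_one, Finset.card_univ] at this
    rw [← Nat.card_eq_fintype_card, hN] at this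
    omega
  have e1 := hsplit fun y => (fixSet y).card
  have e2 := hsplit fun y => (fixSet y).card ^ 2
  rw [hs1, hone] at e1
  rw [hs2, hone] at e2
  set n1 := (S.filter fun y => (fixSet y).card = 1).card
  set n2 := (S.filter fun y => (fixSet y).card = 2).card
  have hind : ∀ f : ℕ → ℕ, ∑ y ∈ S, f (fixSet y).card = n1 * f 1 + n2 * f 2 + D.card * f 0 := by
    intro f
    have hDS : D = S.filter fun y => (fixSet y).card = 0 := by
      ext y
      simp only [hD, hS, Finset.mem_filter, Finset.mem_univ, true_and]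
      exact ⟨fun h => ⟨fun hy => by rw [hy, hone] at h; omega, h⟩, fun h => h.2⟩
    rw [hDS]
    have : ∀ y ∈ S, f (fixSet y).card =
        (if (fixSet y).card = 1 then f 1 else 0) + (if (fixSet y).card = 2 then f 2 else 0) +
          (if (fixSet y).card = 0 then f 0 else 0) := by
      intro y hy
      have := hZ.card_fixSet_le (Finset.mem_filter.1 hy).2
      interval_cases h : (fixSet y).card <;> simp
    rw [Finset.sum_congr rfl this, Finset.sum_add_distrib, Finset.sum_add_distrib,
      ← Finset.sum_filter, ← Finset.sum_filter, ← Finset.sum_filter, Finset.sum_const,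
      Finset.sum_const, Finset.sum_const, smul_eq_mul, smul_eq_mul, smul_eq_mul]
  have i0 := hind fun _ => 1
  rw [Finset.sum_const, smul_eq_mul] at i0
  rw [hind fun i => i] at e1
  rw [hind fun i => i ^ 2] at e2
  simp only [mul_one, mul_zero, add_zero, one_pow, ne_eq, OfNat.ofNat_ne_zero, not_false_eq_true,
    zero_pow] at e1 e2 i0
  have hDcard : D.card + 136 = 153 * 2 ^ j := by norm_num at e2; omega
  -- elements of 3-power order
  have hTD : T ⊆ D := by
    intro y hy
    rw [hT, Finset.mem_filter] at hy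
    rw [hD, Finset.mem_filter]
    refine ⟨Finset.mem_univ _, Finset.card_eq_zero.2 (Finset.eq_empty_iff_forall_notMem.2 fun p hp => ?_)⟩
    exact hZ.three_fixfree hy.2.1 hy.2.2 p (mem_fixSet.1 hp)
  have hprimes : ∀ r : ℕ, r.Prime → r ∣ Nat.card Z → r = 2 ∨ r = 3 ∨ r = 17 := by
    intro r hr hd
    rw [hN, show 306 * 2 ^ j = 2 ^ (j + 1) * 3 ^ 2 * 17 by ring] at hd
    rcases hr.dvd_mul.1 hd with h | h
    · rcases hr.dvd_mul.1 h with h | h
      · exact Or.inl ((Nat.prime_dvd_prime_iff_eq hr Nat.prime_two).1 (hr.dvd_of_dvd_pow h))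
      · exact Or.inr (Or.inl ((Nat.prime_dvd_prime_iff_eq hr Nat.prime_three).1 (hr.dvd_of_dvd_pow h)))
    · exact Or.inr (Or.inr ((Nat.prime_dvd_prime_iff_eq hr (by norm_num)).1 h))
  -- centralisers of elements of 3-power order
  have hcent : ∀ y : Z, y ^ 9 = 1 → y ≠ 1 → IsPGroup 3 (Subgroup.centralizer ({y} : Set Z)) := by
    intro y hy hy1
    set C := Subgroup.centralizer ({y} : Set Z) with hC
    have hcomm : ∀ u : C, Commute (u : Z) y := fun u => (Subgroup.mem_centralizer_singleton_iff.1 u.2)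
    have hr3 : ∀ r : ℕ, r.Prime → r ∣ Nat.card C → r = 3 := by
      intro r hr hd
      have : Fact r.Prime := ⟨hr⟩
      obtain ⟨u, hu⟩ := exists_prime_orderOf_dvd_card' r hd
      rw [← Subgroup.orderOf_coe] at hu
      rcases hprimes r hr (hd.trans (Subgroup.card_subgroup_dvd_card _)) with h | h | h
      · subst h; exact (hZ.not_commute_involution hu hy hy1 (hcomm u)).elim
      · exact h
      · subst h; exact (hZ.not_commute_seventeen hu (hZ.three_fixfree hy hy1) (hcomm u)).elim
    exact IsPGroup.iff_card.2 ⟨_, Nat.eq_prime_pow_of_unique_prime_dvd Nat.card_pos.ne'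
      fun {d} hd hdd => hr3 d hd hdd⟩
  have hR : ∀ R : Sylow 3 ↥Z, Nat.card (R : Subgroup ↥Z) = 3 ^ 2 := by
    intro R
    rw [R.card_eq_multiplicity, hN]
    congr 1
    have hj' : (306 * 2 ^ j : ℕ) = 3 ^ 2 * (34 * 2 ^ j) := by ring
    rw [hj', Nat.factorization_mul (by norm_num) (by positivity), Finsupp.add_apply,
      Nat.factorization_pow, Finsupp.smul_apply, Nat.prime_three.factorization_self,
      Nat.factorization_eq_zero_of_not_dvd]
    · rfl
    · intro h
      rcases Nat.prime_three.dvd_mul.1 h with h | h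
      · norm_num at h
      · have := Nat.prime_three.dvd_of_dvd_pow h; norm_num at this
  -- every element of T lies in exactly one Sylow subgroup
  have huniq : ∀ y : Z, y ^ 9 = 1 → y ≠ 1 → ∃! R : Sylow 3 ↥Z, y ∈ R := by
    intro y hy hy1
    have hzp : IsPGroup 3 (Subgroup.zpowers y) := by
      obtain ⟨i, -, hi⟩ := (Nat.dvd_prime_pow Nat.prime_three).1
        (show orderOf y ∣ 3 ^ 2 from orderOf_dvd_of_pow_eq_one hy)
      exact IsPGroup.iff_card.2 ⟨i, by rw [Nat.card_zpowers, hi]⟩
    obtain ⟨R, hR'⟩ := hzp.exists_le_sylow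
    have hle : ∀ Q : Sylow 3 ↥Z, y ∈ Q →
        (Q : Subgroup ↥Z) = Subgroup.centralizer ({y} : Set Z) := by
      intro Q hQ
      refine ((Q.is_maximal' (hcent y hy hy1) ?_)).symm
      intro u hu
      rw [Subgroup.mem_centralizer_singleton_iff]
      have hab : IsMulCommutative ↥(Q : Subgroup ↥Z) :=
        IsPGroup.isMulCommutative_of_card_eq_prime_sq (p := 3) (hR Q)
      exact congrArg Subtype.val (mul_comm' (⟨u, hu⟩ : ↥(Q : Subgroup ↥Z)) ⟨y, hQ⟩)
    refine ⟨R, hR' (Subgroup.mem_zpowers y), fun Q hQ => Sylow.ext ?_⟩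
    rw [hle Q hQ, hle R (hR' (Subgroup.mem_zpowers y))]
  have hTcard : T.card = 8 * Nat.card (Sylow 3 ↥Z) := by
    let _ : Fintype (Sylow 3 ↥Z) := Fintype.ofFinite _
    rw [show T = Finset.univ.biUnion fun R : Sylow 3 ↥Z =>
        (Finset.univ.filter fun y : Z => y ∈ R ∧ y ≠ 1) from ?_, Finset.card_biUnion,
      Nat.card_eq_fintype_card]
    · rw [Finset.sum_const_nat fun R _ => ?_, Finset.card_univ, mul_comm]
      have h9 : (Finset.univ.filter fun y : Z => y ∈ R).card = 9 := by
        rw [← Fintype.card_subtype, ← Nat.card_eq_fintype_card]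
        exact hR R
      have he : (Finset.univ.filter fun y : Z => y ∈ R ∧ y ≠ 1) =
          (Finset.univ.filter fun y : Z => y ∈ R).erase 1 := by
        ext y; simp [and_comm]
      rw [he, Finset.card_erase_of_mem (by simpa using one_mem _), h9]
    · intro R _ Q _ hRQ
      rw [Function.onFun, Finset.disjoint_left]
      intro y hyR hyQ
      rw [Finset.mem_filter] at hyR hyQ
      have hy9 : y ^ 9 = 1 := by
        have := pow_card_eq_one' (x := (⟨y, hyR.2.1⟩ : ↥(R : Subgroup ↥Z)))
        rw [hR R] at this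
        exact congrArg Subtype.val this
      obtain ⟨W, -, hW⟩ := huniq y hy9 hyR.2.2
      exact hRQ ((hW R hyR.2.1).trans (hW Q hyQ.2.1).symm)
    · ext y
      simp only [hT, Finset.mem_filter, Finset.mem_univ, true_and, Finset.mem_biUnion]
      constructor
      · intro h
        obtain ⟨W, hW, -⟩ := huniq y h.1 h.2
        exact ⟨W, hW, h.2⟩
      · rintro ⟨R, hyR, hy1⟩
        have := pow_card_eq_one' (x := (⟨y, hyR⟩ : ↥(R : Subgroup ↥Z)))
        rw [hR R] at this
        exact ⟨congrArg Subtype.val this, hy1⟩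
  -- the remaining fixed-point-free elements fall into classes of size divisible by 153
  have hO : 153 ∣ (D \ T).card := by
    rw [Finset.card_eq_sum_card_fiberwise (f := fun y : Z => ConjClasses.mk y)
      (t := Finset.univ) (fun y _ => Finset.mem_univ _)]
    refine Finset.dvd_sum fun c _ => ?_
    by_cases hne : ((D \ T).filter fun y => ConjClasses.mk y = c) = ∅
    · rw [hne]; simp
    obtain ⟨y, hy⟩ := Finset.nonempty_iff_ne_empty.2 hne
    rw [Finset.mem_filter, Finset.mem_sdiff] at hy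
    obtain ⟨⟨hyD, hyT⟩, rfl⟩ := hy
    have hfix : ∀ x : Z, x ∈ D ↔ ∀ p : P1, x • p ≠ p := by
      intro x
      rw [hD, Finset.mem_filter, Finset.card_eq_zero, Finset.eq_empty_iff_forall_notMem]
      simp [mem_fixSet]
    have hclass : ((D \ T).filter fun x => ConjClasses.mk x = ConjClasses.mk y) =
        Finset.univ.filter fun x => IsConj y x := by
      ext x
      simp only [Finset.mem_filter, Finset.mem_univ, true_and, ConjClasses.mk_eq_mk_iff_isConj,
        Finset.mem_sdiff]
      constructor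
      · exact fun h => h.2.symm
      · intro h
        obtain ⟨z, rfl⟩ := isConj_iff.1 h
        refine ⟨⟨?_, ?_⟩, h.symm⟩
        · rw [hfix] at hyD ⊢
          intro p hp
          apply hyD (z⁻¹ • p)
          rw [mul_smul, mul_smul] at hp
          exact eq_inv_smul_iff.2 hp
        · intro hx
          apply hyT
          rw [hT, Finset.mem_filter] at hx ⊢
          refine ⟨Finset.mem_univ _, ?_, fun h1 => hx.2.2 (by rw [h1]; group)⟩
          have := hx.2.1
          rw [conj_pow] at this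
          calc y ^ 9 = z⁻¹ * (z * y ^ 9 * z⁻¹) * z := by group
            _ = 1 := by rw [this]; group
    rw [hclass, ← Fintype.card_subtype, ← Nat.card_eq_fintype_card]
    have hidx : Nat.card {x : Z // IsConj y x} = (Subgroup.centralizer ({y} : Set Z)).index := by
      rw [← CfsgLib.ClassSizes.ncard_conjRange, ← Nat.card_coe_set_eq]
      exact Nat.card_congr (Equiv.subtypeEquivRight fun x => isConj_iff)
    rw [hidx]
    set C := Subgroup.centralizer ({y} : Set Z)
    have hcop : Nat.Coprime 153 (Nat.card C) := by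
      apply Nat.coprime_of_dvd
      intro r hr h153 hd
      have hr' : r = 3 ∨ r = 17 := by
        rcases hprimes r hr (hd.trans (Subgroup.card_subgroup_dvd_card _)) with h | h
        · subst h; norm_num at h153
        · exact h
      have : Fact r.Prime := ⟨hr⟩
      obtain ⟨u, hu⟩ := exists_prime_orderOf_dvd_card' r hd
      rw [← Subgroup.orderOf_coe] at hu
      have hcom : Commute (u : Z) y := Subgroup.mem_centralizer_singleton_iff.1 u.2
      rcases hr' with h | h
      · subst h
        have hu9 : (u : Z) ^ 9 = 1 := by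
          rw [show (9 : ℕ) = 3 * 3 from rfl, pow_mul, orderOf_dvd_iff_pow_eq_one.1 hu.dvd, one_pow]
        have hu1 : (u : Z) ≠ 1 := fun h => by rw [h, orderOf_one] at hu; norm_num at hu
        obtain ⟨i, hi⟩ := (hcent _ hu9 hu1) ⟨y, Subgroup.mem_centralizer_singleton_iff.2 hcom.symm⟩
        apply hyT
        rw [hT, Finset.mem_filter]
        refine ⟨Finset.mem_univ _, ?_, fun h1 => (hfix y).1 hyD (∞ : P1) (by rw [h1, one_smul])⟩
        have hd3 : orderOf y ∣ 3 ^ i := orderOf_dvd_of_pow_eq_one (congrArg Subtype.val hi)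
        obtain ⟨i', -, hi'⟩ := (Nat.dvd_prime_pow Nat.prime_three).1 hd3
        rw [← orderOf_dvd_iff_pow_eq_one, hi']
        have hdN : 3 ^ i' ∣ 306 * 2 ^ j := by rw [← hi', ← hN]; exact orderOf_dvd_natCard y
        have hdN' : 3 ^ i' ∣ 306 :=
          (Nat.Coprime.pow _ _ (show Nat.Coprime 3 2 by norm_num)).dvd_of_dvd_mul_right hdN
        rw [show (306 : ℕ) = 34 * 3 ^ 2 by norm_num] at hdN'
        exact (Nat.Coprime.pow_left _ (show Nat.Coprime 3 34 by norm_num)).dvd_of_dvd_mul_left hdN'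
      · subst h
        exact hZ.not_commute_seventeen hu ((hfix y).1 hyD) hcom
    have hdiv : 153 ∣ C.index * Nat.card C := by
      rw [Subgroup.index_mul_card, hN]; exact dvd_mul_of_dvd_left (by norm_num) _
    exact hcop.dvd_of_dvd_mul_right hdiv
  rw [Finset.card_sdiff_of_subset hTD] at hO
  have hle := Finset.card_le_card hTD
  rw [hTcard] at hO hle
  obtain ⟨m, hm⟩ := hO
  have hn3 : Nat.card (Sylow 3 ↥Z) = 136 ∧ j = 3 ∧ m = 0 := by
    have hdvd := hZ.syl
    have hle' : Nat.card (Sylow 3 ↥Z) ≤ 136 := Nat.le_of_dvd (by norm_num) hdvd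
    interval_cases j <;> norm_num at hDcard <;> omega
  refine ⟨by rw [hN, hn3.2.1]; norm_num, hn3.1, fun y hy => ?_⟩
  have hyT : y ∈ T := by
    by_contra hyT
    have hmem : y ∈ D \ T := by
      rw [Finset.mem_sdiff, hD, Finset.mem_filter]
      exact ⟨⟨Finset.mem_univ _, Finset.card_eq_zero.2 (Finset.eq_empty_iff_forall_notMem.2
        fun p hp => hy p (mem_fixSet.1 hp))⟩, hyT⟩
    have := Finset.card_pos.2 ⟨y, hmem⟩
    rw [Finset.card_sdiff_of_subset hTD, hTcard, hm, hn3.2.2] at this
    omega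
  exact (Finset.mem_filter.1 hyT).2.1

lemma swap_sq (hZ : Good Z) {y : Z} (h1 : y • (∞ : P1) = ((0 : K) : P1))
    (h0 : y • ((0 : K) : P1) = ∞) : y ^ 2 = 1 ∧ ∃ p : P1, y • p = p := by
  have hsq : y ^ 2 = 1 := by
    by_contra hne
    have f1 : (y ^ 2) • (∞ : P1) = ∞ := by rw [pow_two, mul_smul, h1, h0]
    have f0 : (y ^ 2) • ((0 : K) : P1) = ((0 : K) : P1) := by rw [pow_two, mul_smul, h0, h1]
    have hfree : ∀ p : P1, y • p ≠ p := by
      intro p hp
      rcases hZ.fix_le_two hne f1 f0 (pow_smul_fix hp 2) (infty_ne_coe _) with h | h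
      · rw [h, h1] at hp; exact coe_ne_infty _ hp
      · rw [h, h0] at hp; exact infty_ne_coe _ hp
    have h9 := hZ.main_count.2.2 y hfree
    have : y • (∞ : P1) = ∞ := by
      have h10 : y = (y ^ 2) ^ 5 := by rw [← pow_mul, show 2 * 5 = 9 + 1 from rfl, pow_succ, h9, one_mul]
      rw [h10]; exact pow_smul_fix f1 5
    rw [h1] at this
    exact coe_ne_infty _ this
  exact ⟨hsq, hZ.exists_fix_of_sq_eq_one hsq⟩

lemma exists_mul_mem (hZ : Good Z) (a : K) (ha : a ^ 8 = 1) :
    ∃ y : Z, y • (∞ : P1) = ∞ ∧ ∀ x : K, y • (x : P1) = ((a * x : K) : P1) := by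
  classical
  obtain ⟨hN, -, -⟩ := hZ.main_count
  have := hZ.trans
  let A := MulAction.stabilizer Z (∞ : P1)
  let B := MulAction.stabilizer A ((0 : K) : P1)
  have hA : Nat.card Z = 18 * Nat.card A := by
    rw [← Subgroup.index_mul_card A, MulAction.index_stabilizer_of_transitive, card_P1]
  have haff : ∀ b : B, ∃ c : K, c ^ 8 = 1 ∧ ∀ x : K, ((b : A) : Z) • (x : P1) = ((c * x : K) : P1) :=
    fun b => hZ.affine_of_fix_two b.2 (b : A).2
  choose c hc8 hc using haff
  let f : B → {e : K // e ^ 8 = 1} := fun b => ⟨c b, hc8 b⟩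
  have hinj : Function.Injective f := by
    intro b b' h
    have hac : c b = c b' := congrArg Subtype.val h
    refine Subtype.ext (Subtype.ext (Subtype.ext (Equiv.ext fun p => ?_)))
    rcases p with _ | x
    · exact ((b : A).2).trans ((b' : A).2).symm
    · exact (hc b x).trans ((by rw [hac] : _ = _).trans (hc b' x).symm)
  have hBc : 8 ≤ Nat.card B := by
    have h1 : Nat.card A = 136 := by omega
    have h2 := Subgroup.index_mul_card B
    rw [h1, MulAction.index_stabilizer] at h2
    have h3 : (MulAction.orbit A ((0 : K) : P1)).ncard ≤ 17 := by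
      have hsub : MulAction.orbit A ((0 : K) : P1) ⊆ ({∞}ᶜ : Set P1) := by
        rintro p ⟨u, rfl⟩ h
        exact coe_ne_infty (0 : K) (MulAction.injective (u : Z)
          ((Set.mem_singleton_iff.1 h).trans u.2.symm))
      refine (Set.ncard_le_ncard hsub).trans ?_
      rw [Set.ncard_compl, Set.ncard_singleton, card_P1]
    by_contra h
    have := Nat.mul_le_mul h3 (show Nat.card B ≤ 7 by omega)
    omega
  have h8 : Nat.card {e : K // e ^ 8 = 1} = 8 := by rw [Nat.card_eq_fintype_card]; decide +kernel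
  have hbij : Function.Bijective f := by
    refine (Nat.bijective_iff_injective_and_card f).2 ⟨hinj, ?_⟩
    have := Nat.card_le_card_of_injective f hinj
    omega
  obtain ⟨b, hb⟩ := hbij.2 ⟨a, ha⟩
  refine ⟨((b : A) : Z), (b : A).2, fun x => ?_⟩
  rw [hc b x, show c b = a from congrArg Subtype.val hb]

/-- The inversion belongs to the group. -/
lemma exists_inv (hZ : Good Z) : ∃ W : Z, W • (∞ : P1) = ((0 : K) : P1) ∧
    W • ((0 : K) : P1) = ∞ ∧ ∀ x : K, x ≠ 0 → W • (x : P1) = ((x⁻¹ : K) : P1) := by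
  classical
  obtain ⟨w, hw0, hwinf⟩ := hZ.exists_move ((0 : K) : P1) (∞ : P1) (coe_ne_infty _)
  obtain ⟨hw2, hwfix⟩ := hZ.swap_sq hwinf hw0
  have hww : ∀ p : P1, w • w • p = p := fun p => by rw [← mul_smul, ← pow_two, hw2, one_smul]
  have hfin : ∀ x : K, x ≠ 0 → ∃ c : K, c ≠ 0 ∧ w • (x : P1) = (c : P1) := by
    intro x hx
    rcases h : w • (x : P1) with _ | c
    · exact absurd (coe_injective (MulAction.injective w (h.trans hw0.symm))) hx
    · refine ⟨c, fun hc => ?_, rfl⟩
      apply coe_ne_infty x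
      apply MulAction.injective w
      show w • (x : P1) = w • ∞
      rw [hwinf]
      exact h.trans (by rw [hc]; rfl)
  have hrel : ∀ a x : K, a ^ 8 = 1 → x ≠ 0 → ∀ c : K, w • (x : P1) = (c : P1) →
      w • ((a * x : K) : P1) = ((a⁻¹ * c : K) : P1) := by
    intro a x ha hx c hc
    obtain ⟨m, hminf, hm⟩ := hZ.exists_mul_mem a ha
    have ha0 : a ≠ 0 := fun h => by rw [h, zero_pow (by norm_num)] at ha; exact zero_ne_one ha
    obtain ⟨hs, -⟩ := hZ.swap_sq (y := w * m) (by rw [mul_smul, hminf, hwinf])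
      (by rw [mul_smul, hm, mul_zero, hw0])
    have hs' : ∀ p : P1, w • m • w • m • p = p := fun p => by
      have := congrArg (fun u : Z => u • p) hs
      simpa only [pow_two, mul_smul, one_smul] using this
    obtain ⟨d, hd0, hd⟩ := hfin (a * x) (mul_ne_zero ha0 hx)
    have h := hs' (x : P1)
    rw [hm, hd, hm] at h
    have h2 := congrArg (fun p => w • p) h
    rw [hww, hc] at h2
    rw [hd, ← coe_injective h2, ← mul_assoc, inv_mul_cancel₀ ha0, one_mul]
  obtain ⟨c1, hc10, hc1⟩ := hfin 1 one_ne_zero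
  have hcase : ∀ x : K, x ≠ 0 → x ^ 8 = 1 ∨ ∃ a : K, a ^ 8 = 1 ∧ x = a * 3 := by decide +kernel
  by_cases hsq : c1 ^ 8 = 1
  · -- normalise so that `1 ↦ 1`
    obtain ⟨m, hminf, hm⟩ := hZ.exists_mul_mem c1⁻¹ (by rw [inv_pow, hsq, inv_one])
    obtain ⟨c3, hc30, hc3⟩ := hfin 3 (by decide)
    set t := c1⁻¹ * (3 * c3) with ht
    have hW : ∀ x : K, x ≠ 0 → (m * w) • (x : P1) =
        (((if x ^ 8 = 1 then 1 else t) * x⁻¹ : K) : P1) := by
      intro x hx
      rw [mul_smul]
      by_cases hx8 : x ^ 8 = 1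
      · have := hrel x 1 hx8 one_ne_zero c1 hc1
        rw [mul_one] at this
        rw [this, hm, if_pos hx8, one_mul, mul_comm x⁻¹, ← mul_assoc, inv_mul_cancel₀ hc10, one_mul]
      · obtain ⟨a, ha, hxa⟩ := (hcase x hx).resolve_left hx8
        rw [if_neg hx8, hxa, hrel a 3 ha (by decide) c3 hc3, hm, ht]
        congr 1
        have h3 : (3 : K) ≠ 0 := by decide
        field_simp
    have hWinf : (m * w) • (∞ : P1) = ((0 : K) : P1) := by rw [mul_smul, hwinf, hm, mul_zero]
    have hW0 : (m * w) • ((0 : K) : P1) = ∞ := by rw [mul_smul, hw0, hminf]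
    -- the constraint from W τ W
    set W := m * w with hWdef
    obtain ⟨τ, hτ⟩ : ∃ τ : Z, (τ : Equiv.Perm P1) = transl := ⟨⟨transl, hZ.transl_mem⟩, rfl⟩
    have hτx : ∀ x : K, τ • (x : P1) = ((x + 1 : K) : P1) := fun x => by
      show (τ : Equiv.Perm P1) (x : P1) = _
      rw [hτ, transl_coe]
    have hτinf : τ • (∞ : P1) = ∞ := by
      show (τ : Equiv.Perm P1) (∞ : P1) = _
      rw [hτ, transl_infty]
    have hτinv : ∀ x : K, τ⁻¹ • (x : P1) = ((x - 1 : K) : P1) := fun x => by
      rw [inv_smul_eq_iff, hτx, sub_add_cancel]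
    have hτinvinf : τ⁻¹ • (∞ : P1) = ∞ := by rw [inv_smul_eq_iff, hτinf]
    have hWW := (hZ.swap_sq hWinf hW0).1
    set g := τ⁻¹ * W * τ * W * τ⁻¹ with hg
    have hneg : ((-1 : K)) ^ 8 = 1 := by decide
    have hginf : g • (∞ : P1) = ((0 : K) : P1) := by
      simp only [hg, mul_smul, hτinvinf, hWinf, hτx, zero_add]
      rw [hW 1 one_ne_zero, if_pos (one_pow 8), hτinv]
      norm_num
    have hg0 : g • ((0 : K) : P1) = ∞ := by
      simp only [hg, mul_smul, hτinv, zero_sub]
      rw [hW (-1) (by decide), if_pos hneg, one_mul, hτx]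
      rw [show ((-1 : K))⁻¹ + 1 = 0 by decide +kernel, hW0, hτinvinf]
    obtain ⟨a, ha8, ha⟩ := hZ.affine_of_fix_two (y := g * W) (by rw [mul_smul, hW0, hginf])
      (by rw [mul_smul, hWinf, hg0])
    have hgW : g = (g * W) * W := by rw [mul_assoc, ← pow_two, hWW, mul_one]
    set F : K → K := fun x => (if x ^ 8 = 1 then 1 else t) * x⁻¹ with hF
    have hval : ∀ x : K, x ≠ 0 → x ≠ 1 → F (x - 1) + 1 ≠ 0 →
        F (F (x - 1) + 1) - 1 = a * F x := by
      intro x hx hx1 hne
      have h1 : g • (x : P1) = ((a * F x : K) : P1) := by rw [hgW, mul_smul, hW x hx, ha]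
      simp only [hg, mul_smul, hτinv] at h1
      rw [hW _ (sub_ne_zero.2 hx1), hτx, hW _ hne, hτinv] at h1
      exact coe_injective h1
    have ht8 : t ^ 8 = 1 := by
      have h1 := hW 3 (by decide)
      rw [if_neg (by decide)] at h1
      obtain ⟨hs, -⟩ := hZ.swap_sq hWinf hW0
      have hs3 : W • W • ((3 : K) : P1) = ((3 : K) : P1) := by
        rw [← mul_smul, ← pow_two, hs, one_smul]
      have ht0 : t * (3 : K)⁻¹ ≠ 0 := mul_ne_zero
        (mul_ne_zero (inv_ne_zero hc10) (mul_ne_zero (by decide) hc30)) (inv_ne_zero (by decide))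
      rw [h1, hW _ ht0] at hs3
      have h2 := coe_injective hs3
      revert h2
      generalize t = u at ht0
      revert u
      decide +kernel
    have hkey : ∀ u : K, u ^ 8 = 1 → (∃ b : K, ∀ x : K, x ≠ 0 → x ≠ 1 →
        (if (x - 1) ^ 8 = 1 then 1 else u) * (x - 1)⁻¹ + 1 ≠ 0 →
        (if ((if (x - 1) ^ 8 = 1 then 1 else u) * (x - 1)⁻¹ + 1) ^ 8 = 1 then 1 else u) *
          ((if (x - 1) ^ 8 = 1 then 1 else u) * (x - 1)⁻¹ + 1)⁻¹ - 1 =
          b * ((if x ^ 8 = 1 then 1 else u) * x⁻¹)) → u = 1 := by decide +kernel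
    have ht1 : t = 1 := hkey t ht8 ⟨a, hval⟩
    refine ⟨W, hWinf, hW0, fun x hx => ?_⟩
    rw [hW x hx, ht1, ite_self, one_mul]
  · -- a fixed-point-free swap: impossible
    exfalso
    have hw1 : w • (c1 : P1) = ((1 : K) : P1) := by rw [← hc1, hww]
    have hall : ∀ x : K, x ≠ 0 → w • (x : P1) = ((c1 * x⁻¹ : K) : P1) := by
      intro x hx
      by_cases hx8 : x ^ 8 = 1
      · have := hrel x 1 hx8 one_ne_zero c1 hc1
        rw [mul_one] at this
        rw [this, mul_comm]
      · have he : (x * c1⁻¹) ^ 8 = 1 := by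
          have := (by decide +kernel : ∀ u v : K, u ≠ 0 → v ≠ 0 → u ^ 8 ≠ 1 → v ^ 8 ≠ 1 →
            (u * v⁻¹) ^ 8 = 1)
          exact this x c1 hx hc10 hx8 hsq
        have := hrel (x * c1⁻¹) c1 he hc10 1 hw1
        rw [mul_assoc, inv_mul_cancel₀ hc10, mul_one, mul_one, mul_inv, inv_inv, mul_comm] at this
        exact this
    obtain ⟨p, hp⟩ := hwfix
    rcases p with _ | x
    · exact coe_ne_infty _ (hwinf.symm.trans hp)
    · by_cases hx : x = 0
      · subst hx; exact infty_ne_coe _ (hw0.symm.trans hp)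
      · have := coe_injective ((hall x hx).symm.trans hp)
        apply hsq
        have hc : c1 = x * x := by field_simp at this; linear_combination this
        rw [hc, ← pow_two, ← pow_mul]
        exact ZMod.pow_card_sub_one_eq_one hx

theorem le_range (hZ : Good Z) : Z ≤ piSL.range := by
  obtain ⟨W, hWinf, hW0, hW⟩ := hZ.exists_inv
  have hWr : (W : Equiv.Perm P1) ∈ piSL.range := inv_mem_range _ hW0 hWinf hW
  have hWmem := W.2
  have haff : ∀ y : Equiv.Perm P1, y ∈ Z → y ∞ = ∞ → y ∈ piSL.range := by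
    intro y hy hinf
    obtain ⟨a, b, ha, hsq, hab⟩ := hZ.affine hy hinf
    exact (affine_mem y a b ha hinf hab).2 hsq
  intro y hy
  rcases hc : y (∞ : P1) with _ | c
  · exact haff y hy hc
  · have ht : transl ^ (-c).val ∈ piSL.range := haff _ (pow_mem hZ.transl_mem _) (transl_pow_infty _)
    have h1 : (W : Equiv.Perm P1) * transl ^ (-c).val * y ∈ piSL.range := by
      apply haff _ (mul_mem (mul_mem hWmem (pow_mem hZ.transl_mem _)) hy)
      rw [Equiv.Perm.mul_apply, Equiv.Perm.mul_apply, hc]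
      show (W : Equiv.Perm P1) ((transl ^ (-c).val) (c : P1)) = _
      rw [transl_pow_coe, ZMod.natCast_zmod_val, add_neg_cancel]
      exact hW0
    have := mul_mem (inv_mem (mul_mem hWr ht)) h1
    rwa [show ((W : Equiv.Perm P1) * transl ^ (-c).val)⁻¹ *
      ((W : Equiv.Perm P1) * transl ^ (-c).val * y) = y by group] at this

end Good

end CfsgLib.Sylow1817
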