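import Cfsg.Agent.Sylow1817.Line

/-!
Even transitive groups of degree 18 on the projective line over `ZMod 17` containing the translation,
with the number of Sylow 3-subgroups dividing 136: a counting argument identifies their elements.
-/

set_option autoImplicit false

namespace CfsgLib.Sylow1817

open OnePoint MulAction

/-- Translation by one. -/
def transl : Equiv.Perm P1 := Equiv.optionCongr (Equiv.addRight (1 : K))

lemma transl_infty : transl (∞ : P1) = ∞ := rfl

lemma transl_coe (x : K) : transl (x : P1) = ((x + 1 : K) : P1) := rfl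

lemma transl_pow_coe (n : ℕ) (x : K) : (transl ^ n) (x : P1) = ((x + n : K) : P1) := by
  induction n with
  | zero => simp
  | succ n ih =>
    rw [pow_succ', Equiv.Perm.mul_apply, ih, transl_coe, Nat.cast_succ, add_assoc]

lemma transl_pow_infty (n : ℕ) : (transl ^ n) (∞ : P1) = ∞ := by
  induction n with
  | zero => rfl
  | succ n ih => rw [pow_succ', Equiv.Perm.mul_apply, ih, transl_infty]

lemma orderOf_transl : orderOf transl = 17 := by
  apply orderOf_eq_prime
  · refine Equiv.ext fun p => ?_
    rcases p with _ | x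
    · exact transl_pow_infty 17
    · show (transl ^ 17) (x : P1) = (x : P1)
      rw [transl_pow_coe, show ((17 : ℕ) : K) = 0 from by decide, add_zero]
  · intro h
    have := Equiv.ext_iff.1 h ((0 : K) : P1)
    rw [transl_coe] at this
    exact absurd (coe_eq_coe.1 this) (by decide)

/-- Multiplication as a permutation fixing `∞`. -/
def mulPerm (a : K) (ha : a ≠ 0) : Equiv.Perm P1 := Equiv.optionCongr (Equiv.mulLeft₀ a ha)

lemma sign_transl : Equiv.Perm.sign transl = 1 := by
  have h := congrArg Equiv.Perm.sign (pow_orderOf_eq_one transl)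
  rw [orderOf_transl, map_pow, map_one] at h
  rcases Int.units_eq_one_or (Equiv.Perm.sign transl) with h' | h'
  · exact h'
  · rw [h'] at h; exact absurd h (by decide)

lemma isSquare_of_sign_mulPerm (a : K) (ha : a ≠ 0) (h : Equiv.Perm.sign (mulPerm a ha) = 1) :
    IsSquare a := by
  replace h : Equiv.Perm.sign (α := Option K) (Equiv.optionCongr (Equiv.mulLeft₀ a ha)) = 1 := h
  rw [Equiv.optionCongr_sign] at h
  revert a
  decide +kernel

/-- An element of a group of permutations fixing `∞` and normalising the translations is affine. -/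
lemma exists_affine (y : Equiv.Perm P1) (hinf : y ∞ = ∞) (n : ℕ)
    (hn : y * transl * y⁻¹ = transl ^ n) :
    ∃ a b : K, a ≠ 0 ∧ ∀ x : K, y (x : P1) = ((a * x + b : K) : P1) := by
  obtain ⟨b, hb⟩ : ∃ b : K, y ((0 : K) : P1) = (b : P1) := by
    rcases h : y ((0 : K) : P1) with _ | b
    · exact absurd (y.injective (h.trans hinf.symm)) (coe_ne_infty _)
    · exact ⟨b, rfl⟩
  have hnat : ∀ m : ℕ, y ((m : K) : P1) = (((n : K) * m + b : K) : P1) := by
    intro m
    induction m with
    | zero => simp only [Nat.cast_zero, mul_zero, zero_add]; exact hb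
    | succ m ih =>
      have : y * transl = transl ^ n * y := by rw [← hn]; group
      have h2 := Equiv.ext_iff.1 this ((m : K) : P1)
      rw [Equiv.Perm.mul_apply, Equiv.Perm.mul_apply, transl_coe, ih, transl_pow_coe] at h2
      rw [Nat.cast_succ, h2]
      congr 1
      ring
  have hall : ∀ x : K, y (x : P1) = (((n : K) * x + b : K) : P1) := fun x => by
    have := hnat x.val
    rwa [ZMod.natCast_zmod_val] at this
  refine ⟨n, b, fun h => ?_, hall⟩
  have := (hall 1).trans ((hall 0).trans (by rw [h]; simp)).symm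
  have h10 := coe_eq_coe.1 (y.injective (this.trans (by rw [hall 0, h])))
  exact absurd h10 (by decide)

/-- The hypotheses on an even group. -/
structure Good (Z : Subgroup (Equiv.Perm P1)) : Prop where
  transl_mem : transl ∈ Z
  trans : MulAction.IsPretransitive Z P1
  norm : ∀ y ∈ Z, y ∞ = ∞ → ∃ n : ℕ, y * transl * y⁻¹ = transl ^ n
  even : ∀ y ∈ Z, Equiv.Perm.sign y = 1
  syl : Nat.card (Sylow 3 ↥Z) ∣ 136

lemma pow_smul_fix {M α : Type*} [Monoid M] [MulAction M α] {g : M} {x : α} (h : g • x = x) (n : ℕ) :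
    g ^ n • x = x := by
  induction n with
  | zero => simp
  | succ n ih => rw [pow_succ, mul_smul, h, ih]

namespace Good

variable {Z : Subgroup (Equiv.Perm P1)}

lemma affine (hZ : Good Z) {y : Equiv.Perm P1} (hy : y ∈ Z) (hinf : y ∞ = ∞) :
    ∃ a b : K, a ≠ 0 ∧ IsSquare a ∧ ∀ x : K, y (x : P1) = ((a * x + b : K) : P1) := by
  obtain ⟨n, hn⟩ := hZ.norm y hy hinf
  obtain ⟨a, b, ha, hab⟩ := exists_affine y hinf n hn
  refine ⟨a, b, ha, isSquare_of_sign_mulPerm a ha ?_, hab⟩
  have : y = transl ^ b.val * mulPerm a ha := by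
    refine Equiv.ext fun p => ?_
    rcases p with _ | x
    · show y ∞ = (transl ^ b.val) (∞ : P1)
      rw [hinf, transl_pow_infty]
    · show y (x : P1) = (transl ^ b.val) ((a * x : K) : P1)
      rw [hab, transl_pow_coe, ZMod.natCast_zmod_val]
  have h := hZ.even y hy
  rw [this, map_mul, map_pow, sign_transl, one_pow, one_mul] at h
  exact h

lemma exists_move (hZ : Good Z) (p q : P1) (hpq : p ≠ q) :
    ∃ z : Z, z • p = (∞ : P1) ∧ z • q = ((0 : K) : P1) := by
  obtain ⟨z, hz⟩ := hZ.trans.exists_smul_eq p (∞ : P1)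
  rcases hq : z • q with _ | c
  · exact absurd (MulAction.injective z (hz.trans hq.symm)) hpq
  · refine ⟨⟨transl ^ (-c).val, pow_mem hZ.transl_mem _⟩ * z, ?_, ?_⟩
    · rw [mul_smul, hz]; exact transl_pow_infty _
    · rw [mul_smul, hq]
      show (transl ^ (-c).val) (c : P1) = _
      rw [transl_pow_coe, ZMod.natCast_zmod_val, add_neg_cancel]

lemma affine_of_fix_two (hZ : Good Z) {y : Z} (h0 : y • ((0 : K) : P1) = ((0 : K) : P1))
    (hinf : y • (∞ : P1) = ∞) :
    ∃ a : K, a ^ 8 = 1 ∧ ∀ x : K, y • (x : P1) = ((a * x : K) : P1) := by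
  obtain ⟨a, b, ha, hsq, hab⟩ := hZ.affine y.2 hinf
  have hb : b = 0 := by
    have := (hab 0).symm.trans h0
    rw [coe_eq_coe] at this
    simpa using this
  refine ⟨a, ?_, fun x => (hab x).trans (by rw [hb, add_zero])⟩
  obtain ⟨s, rfl⟩ := hsq
  have hs : s ≠ 0 := fun h => ha (by rw [h, mul_zero])
  rw [← pow_two, ← pow_mul]
  exact ZMod.pow_card_sub_one_eq_one hs

/-- A nontrivial element fixes at most two points. -/
lemma fix_le_two (hZ : Good Z) {y : Z} (hy : y ≠ 1) {p q r : P1} (hp : y • p = p) (hq : y • q = q)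
    (hr : y • r = r) (hpq : p ≠ q) : r = p ∨ r = q := by
  by_contra h
  rw [not_or] at h
  obtain ⟨z, hz1, hz2⟩ := hZ.exists_move p q hpq
  have hfix : ∀ s : P1, y • s = s → (z * y * z⁻¹) • (z • s) = z • s := by
    intro s hs
    rw [mul_smul, mul_smul, inv_smul_smul, hs]
  have h1 := hfix p hp
  have h2 := hfix q hq
  have h3 := hfix r hr
  rw [hz1] at h1
  rw [hz2] at h2
  obtain ⟨a, -, ha⟩ := hZ.affine_of_fix_two h2 h1
  rcases hzr : z • r with _ | c
  · exact h.1 (MulAction.injective z (hzr.trans hz1.symm))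
  · have hc : c ≠ 0 := fun hc => h.2 (MulAction.injective z (by
      show z • r = z • q
      rw [hzr, hz2, hc]; rfl))
    rw [hzr] at h3
    have := (ha c).symm.trans h3
    replace this : a * c = c := coe_injective this
    have ha1 : a = 1 := (mul_eq_right₀ hc).1 this
    apply hy
    have hone : z * y * z⁻¹ = 1 := by
      apply Subtype.ext
      refine Equiv.ext fun s => ?_
      rcases s with _ | x
      · exact h1
      · exact (ha x).trans (by rw [ha1, one_mul]; rfl)
    calc y = z⁻¹ * (z * y * z⁻¹) * z := by group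
      _ = 1 := by rw [hone]; group

/-- An element with two fixed points has order dividing 8. -/
lemma pow_eight (hZ : Good Z) {y : Z} {p q : P1} (hp : y • p = p) (hq : y • q = q) (hpq : p ≠ q) :
    y ^ 8 = 1 := by
  by_cases hy : y = 1
  · rw [hy, one_pow]
  obtain ⟨z, hz1, hz2⟩ := hZ.exists_move p q hpq
  have h1 : (z * y * z⁻¹) • (∞ : P1) = ∞ := by rw [← hz1, mul_smul, mul_smul, inv_smul_smul, hp]
  have h2 : (z * y * z⁻¹) • ((0 : K) : P1) = ((0 : K) : P1) := by
    rw [← hz2, mul_smul, mul_smul, inv_smul_smul, hq]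
  obtain ⟨a, ha8, ha⟩ := hZ.affine_of_fix_two h2 h1
  have hpow : ∀ n : ℕ, ∀ x : K, ((z * y * z⁻¹) ^ n) • (x : P1) = ((a ^ n * x : K) : P1) := by
    intro n
    induction n with
    | zero => intro x; simp
    | succ n ih => intro x; rw [pow_succ, mul_smul, ha, ih, pow_succ, mul_assoc]
  have h8 : (z * y * z⁻¹) ^ 8 = 1 := by
    apply Subtype.ext
    refine Equiv.ext fun s => ?_
    rcases s with _ | x
    · exact pow_smul_fix h1 8
    · exact (hpow 8 x).trans (by rw [ha8, one_mul]; rfl)
  rw [conj_pow] at h8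
  calc y ^ 8 = z⁻¹ * (z * y ^ 8 * z⁻¹) * z := by group
    _ = 1 := by rw [h8]; group

open scoped Classical in
/-- The set of fixed points. -/
noncomputable def fixSet (y : Z) : Finset P1 := Finset.univ.filter fun p => y • p = p

lemma mem_fixSet {y : Z} {p : P1} : p ∈ fixSet y ↔ y • p = p := by simp [fixSet]

lemma card_fixSet_le (hZ : Good Z) {y : Z} (hy : y ≠ 1) : (fixSet y).card ≤ 2 := by
  by_contra h
  obtain ⟨p, hp, q, hq, r, hr, hpq, hpr, hqr⟩ := Finset.two_lt_card.1 (not_le.1 h)
  rw [mem_fixSet] at hp hq hr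
  rcases hZ.fix_le_two hy hp hq hr hpq with h | h
  · exact hpr h.symm
  · exact hqr h.symm

lemma sum_fix (hZ : Good Z) [Fintype Z] :
    (∑ y : Z, (fixSet y).card = Fintype.card Z) ∧
      (∑ y : Z, (fixSet y).card ^ 2 = 2 * Fintype.card Z) := by
  classical
  have := hZ.trans
  constructor
  · have h := MulAction.sum_card_fixedBy_eq_card_orbits_mul_card_group Z P1
    rw [← Nat.card_eq_fintype_card (α := Quotient (MulAction.orbitRel Z P1))] at h
    have h1 : Nat.card (Quotient (MulAction.orbitRel Z P1)) = 1 := by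
      rw [Nat.card_eq_one_iff_unique]
      refine ⟨⟨fun a b => ?_⟩, ⟨Quotient.mk _ (∞ : P1)⟩⟩
      induction a using Quotient.inductionOn
      induction b using Quotient.inductionOn
      rename_i a b
      obtain ⟨z, hz⟩ := hZ.trans.exists_smul_eq b a
      exact Quotient.sound ⟨z, hz⟩
    rw [h1, one_mul] at h
    rw [← h]
    refine Finset.sum_congr rfl fun y _ => ?_
    rw [Fintype.card_of_subtype (fixSet y) fun p => by rw [mem_fixSet]; rfl]
  · have h := MulAction.sum_card_fixedBy_eq_card_orbits_mul_card_group Z (P1 × P1)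
    rw [← Nat.card_eq_fintype_card (α := Quotient (MulAction.orbitRel Z (P1 × P1)))] at h
    have h2 : Nat.card (Quotient (MulAction.orbitRel Z (P1 × P1))) = 2 := by
      let f : Quotient (MulAction.orbitRel Z (P1 × P1)) → Bool :=
        Quotient.lift (fun x => decide (x.1 = x.2)) (fun x y ⟨z, hz⟩ => by
          subst hz
          show decide (z • y.1 = z • y.2) = decide (y.1 = y.2)
          simp [(MulAction.injective z).eq_iff])
      have hf : Function.Bijective f := by
        constructor
        · intro a b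
          induction a using Quotient.inductionOn
          induction b using Quotient.inductionOn
          rename_i a b
          intro hab
          show Quotient.mk _ a = Quotient.mk _ b
          have hab' : (a.1 = a.2) ↔ (b.1 = b.2) := by simpa [f] using hab
          by_cases ha : a.1 = a.2
          · obtain ⟨z, hz⟩ := hZ.trans.exists_smul_eq b.1 a.1
            exact Quotient.sound ⟨z, Prod.ext hz (by show z • b.2 = a.2; rw [← hab'.1 ha, hz, ha])⟩
          · obtain ⟨z1, hz1, hz1'⟩ := hZ.exists_move a.1 a.2 ha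
            obtain ⟨z2, hz2, hz2'⟩ := hZ.exists_move b.1 b.2 (fun h => ha (hab'.2 h))
            exact Quotient.sound ⟨z1⁻¹ * z2, Prod.ext
              (by show (z1⁻¹ * z2) • b.1 = a.1; rw [mul_smul, hz2, ← hz1, inv_smul_smul])
              (by show (z1⁻¹ * z2) • b.2 = a.2; rw [mul_smul, hz2', ← hz1', inv_smul_smul])⟩
        · intro c
          cases c
          · exact ⟨Quotient.mk _ ((∞ : P1), ((0 : K) : P1)), by simp [f]⟩
          · exact ⟨Quotient.mk _ ((∞ : P1), (∞ : P1)), by simp [f]⟩
      rw [Nat.card_congr (Equiv.ofBijective f hf)]; simp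
    rw [h2] at h
    rw [← h]
    refine Finset.sum_congr rfl fun y _ => ?_
    rw [Fintype.card_of_subtype (fixSet y ×ˢ fixSet y) fun p => by
      rw [Finset.mem_product, mem_fixSet, mem_fixSet]
      exact ⟨fun h => Prod.ext h.1 h.2, fun h => ⟨congrArg Prod.fst h, congrArg Prod.snd h⟩⟩,
      Finset.card_product, pow_two]

lemma exists_sub_dvd (hZ : Good Z) : ∃ j ≤ 3, Nat.card Z = 306 * 2 ^ j := by
  classical
  have := hZ.trans
  let A := MulAction.stabilizer Z (∞ : P1)
  let B := MulAction.stabilizer A ((0 : K) : P1)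
  have hA : Nat.card Z = 18 * Nat.card A := by
    rw [← Subgroup.index_mul_card A, MulAction.index_stabilizer_of_transitive, card_P1]
  have horb : MulAction.orbit A ((0 : K) : P1) = {∞}ᶜ := by
    ext p
    constructor
    · rintro ⟨a, rfl⟩ h
      exact coe_ne_infty (0 : K) (MulAction.injective (a : Z)
        ((Set.mem_singleton_iff.1 h).trans a.2.symm))
    · intro hp
      rcases p with _ | c
      · exact absurd rfl hp
      · refine ⟨⟨⟨transl ^ c.val, pow_mem hZ.transl_mem _⟩, transl_pow_infty _⟩, ?_⟩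
        show (transl ^ c.val) ((0 : K) : P1) = _
        rw [transl_pow_coe, ZMod.natCast_zmod_val, zero_add]
        rfl
  have hB : Nat.card A = 17 * Nat.card B := by
    rw [← Subgroup.index_mul_card B, MulAction.index_stabilizer, horb, Set.ncard_compl,
      Set.ncard_singleton, card_P1]
  have hpow : ∀ b : B, b ^ 8 = 1 := fun b => by
    have := hZ.pow_eight (y := ((b : A) : Z)) (p := (∞ : P1)) (q := ((0 : K) : P1)) (b : A).2 b.2
      (infty_ne_coe _)
    exact Subtype.ext (Subtype.ext this)
  have hle : Nat.card B ≤ 8 := by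
    have haff : ∀ b : B, ∃ a : K, a ^ 8 = 1 ∧ ∀ x : K, ((b : A) : Z) • (x : P1) = ((a * x : K) : P1) :=
      fun b => hZ.affine_of_fix_two b.2 (b : A).2
    choose a ha8 ha using haff
    have hinj : Function.Injective fun b : B => (⟨a b, ha8 b⟩ : {c : K // c ^ 8 = 1}) := by
      intro b c h
      have hac : a b = a c := congrArg Subtype.val h
      refine Subtype.ext (Subtype.ext (Subtype.ext (Equiv.ext fun p => ?_)))
      rcases p with _ | x
      · exact ((b : A).2).trans ((c : A).2).symm
      · exact (ha b x).trans ((by rw [hac] : _ = _).trans (ha c x).symm)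
    refine (Nat.card_le_card_of_injective _ hinj).trans ?_
    rw [Nat.card_eq_fintype_card]
    decide +kernel
  have : Fact (Nat.Prime 2) := ⟨Nat.prime_two⟩
  obtain ⟨j, hj⟩ := IsPGroup.iff_card.1 (fun b : B => ⟨3, hpow b⟩ : IsPGroup 2 B)
  refine ⟨j, ?_, by rw [hA, hB, hj]; ring⟩
  by_contra h
  have : 2 ^ 4 ≤ 2 ^ j := Nat.pow_le_pow_right (by norm_num) (by omega)
  omega

lemma exists_fix_of_sq_eq_one (hZ : Good Z) {y : Z} (hy : y ^ 2 = 1) : ∃ p : P1, y • p = p := by
  classical
  by_contra! h
  have hs := hZ.even y y.2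
  have hy2 : (y : Equiv.Perm P1) ^ 2 = 1 := congrArg Subtype.val hy
  have hsupp : (y : Equiv.Perm P1).support = Finset.univ :=
    Finset.eq_univ_iff_forall.2 fun p => Equiv.Perm.mem_support.2 (h p)
  obtain ⟨hct⟩ : Nonempty (∀ n ∈ (y : Equiv.Perm P1).cycleType, n = 2) := ⟨fun n hn => by
    have h1 := Equiv.Perm.dvd_of_mem_cycleType hn
    have h2 := Equiv.Perm.two_le_of_mem_cycleType hn
    have h3 := Nat.le_of_dvd (by norm_num) (h1.trans (orderOf_dvd_of_pow_eq_one hy2))
    omega⟩
  have hrep := Multiset.eq_replicate_card.2 hct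
  have hsum := Equiv.Perm.sum_cycleType (y : Equiv.Perm P1)
  rw [hsupp, Finset.card_univ, ← Nat.card_eq_fintype_card, card_P1, hrep, Multiset.sum_replicate,
    smul_eq_mul] at hsum
  rw [Equiv.Perm.sign_of_cycleType, hrep, Multiset.sum_replicate, smul_eq_mul,
    Multiset.card_replicate] at hs
  have h9 : Multiset.card (y : Equiv.Perm P1).cycleType = 9 := by omega
  rw [h9] at hs
  exact absurd hs (by decide)

lemma not_commute_seventeen (hZ : Good Z) {y u : Z} (hu : orderOf u = 17)
    (hy : ∀ p : P1, y • p ≠ p) (hc : Commute u y) : False := by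
  classical
  have hu1 : u ≠ 1 := fun h => by rw [h, orderOf_one] at hu; norm_num at hu
  have hP : IsPGroup 17 (Subgroup.zpowers u) :=
    IsPGroup.iff_card.2 ⟨1, by rw [Nat.card_zpowers, hu, pow_one]⟩
  obtain ⟨⟨p, hp⟩⟩ : Nonempty (MulAction.fixedPoints (Subgroup.zpowers u) P1) := by
    have := hP.nonempty_fixed_point_of_prime_not_dvd_card P1 (by rw [card_P1]; norm_num)
    exact this.to_subtype
  have hpu : u • p = p := hp ⟨u, Subgroup.mem_zpowers u⟩
  have hq : u • (y • p) = y • p := by rw [← mul_smul, hc.eq, mul_smul, hpu]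
  have h8 := hZ.pow_eight hpu hq (hy p).symm
  have := orderOf_dvd_of_pow_eq_one h8
  rw [hu] at this
  norm_num at this

lemma fix_of_three (hZ : Good Z) {y : Z} (hy : y ^ 9 = 1) {p : P1} (hp : y • p = p) : y = 1 := by
  obtain ⟨z, hz⟩ := hZ.trans.exists_smul_eq p (∞ : P1)
  have h1 : (z * y * z⁻¹) • (∞ : P1) = ∞ := by rw [← hz, mul_smul, mul_smul, inv_smul_smul, hp]
  obtain ⟨a, b, ha, hsq, hab⟩ := hZ.affine (z * y * z⁻¹).2 h1
  have key : ∀ n : ℕ, ∃ c : K, ∀ x : K,
      ((z * y * z⁻¹) ^ n) • (x : P1) = ((a ^ n * x + c : K) : P1) := by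
    intro n
    induction n with
    | zero => exact ⟨0, fun x => by simp⟩
    | succ n ih =>
      obtain ⟨c, hc⟩ := ih
      refine ⟨a ^ n * b + c, fun x => ?_⟩
      rw [pow_succ, mul_smul, show (z * y * z⁻¹) • (x : P1) = _ from hab x, hc]
      congr 1
      ring
  choose c hc using key
  have h9 : (z * y * z⁻¹) ^ 9 = 1 := by rw [conj_pow, hy]; group
  have e0 := hc 9 0
  have e1 := hc 9 1
  rw [h9, one_smul, coe_eq_coe] at e0 e1
  have ha9 : a ^ 9 = 1 := by linear_combination e0 - e1
  have ha8 : a ^ 8 = 1 := by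
    obtain ⟨s, rfl⟩ := hsq
    rw [← pow_two, ← pow_mul]
    exact ZMod.pow_card_sub_one_eq_one fun h => ha (by rw [h, mul_zero])
  have ha1 : a = 1 := by rw [pow_succ, ha8, one_mul] at ha9; exact ha9
  have h17 : (z * y * z⁻¹) ^ 17 = 1 := by
    have e : (z * y * z⁻¹ : Z) = ⟨transl ^ b.val, pow_mem hZ.transl_mem _⟩ := by
      apply Subtype.ext
      refine Equiv.ext fun q => ?_
      rcases q with _ | x
      · exact h1.trans (transl_pow_infty _).symm
      · refine (hab x).trans ?_
        rw [ha1, one_mul]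
        exact ((transl_pow_coe _ _).trans (by rw [ZMod.natCast_zmod_val])).symm
    rw [e]
    apply Subtype.ext
    show (transl ^ b.val) ^ 17 = 1
    rw [← pow_mul, mul_comm, pow_mul, orderOf_dvd_iff_pow_eq_one.1 orderOf_transl.dvd, one_pow]
  have hd := Nat.dvd_gcd (orderOf_dvd_of_pow_eq_one h9) (orderOf_dvd_of_pow_eq_one h17)
  norm_num at hd
  calc y = z⁻¹ * (z * y * z⁻¹) * z := by group
    _ = 1 := by rw [hd]; group

lemma three_fixfree (hZ : Good Z) {y : Z} (hy : y ^ 9 = 1) (hy1 : y ≠ 1) (p : P1) : y • p ≠ p :=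
  fun h => hy1 (hZ.fix_of_three hy h)

lemma not_commute_involution (hZ : Good Z) {y u : Z} (hu : orderOf u = 2) (hy : y ^ 9 = 1)
    (hy1 : y ≠ 1) (hc : Commute u y) : False := by
  classical
  have hu1 : u ≠ 1 := fun h => by rw [h, orderOf_one] at hu; norm_num at hu
  obtain ⟨p, hp⟩ := hZ.exists_fix_of_sq_eq_one (y := u) (by rw [← hu]; exact pow_orderOf_eq_one u)
  have h1 : u • (y • p) = y • p := by rw [← mul_smul, hc.eq, mul_smul, hp]
  have h2 : u • (y • y • p) = y • y • p := by
    rw [← mul_smul, hc.eq, mul_smul, h1]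
  rcases hZ.fix_le_two hu1 hp h1 h2 (hZ.three_fixfree hy hy1 p).symm with h | h
  · have h9 : (y ^ 9) • p = y • p := by
      have h' : (y ^ 2) • p = p := by rw [pow_two, mul_smul]; exact h
      rw [show (9 : ℕ) = 1 + 2 * 4 from rfl, pow_add, pow_mul, pow_one, mul_smul, pow_smul_fix h' 4]
    rw [hy, one_smul] at h9
    exact hZ.three_fixfree hy hy1 p h9.symm
  · exact hZ.three_fixfree hy hy1 p (MulAction.injective y h)

end Good

end CfsgLib.Sylow1817
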