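import Mathlib

/-!
The projective line over `ZMod 17`: multiplication, translation and inversion as Möbius maps,
the kernels and orders of the actions of `GL₂` and `SL₂`.
-/

set_option autoImplicit false

namespace CfsgLib.Sylow1817

open Matrix OnePoint

/-- The field with 17 elements. -/
abbrev K := ZMod 17

instance fact17 : Fact (Nat.Prime 17) := ⟨by norm_num⟩

/-- The projective line. -/
abbrev P1 := OnePoint K

instance p1Fintype : Fintype P1 := inferInstanceAs (Fintype (Option K))

instance p1DecEq : DecidableEq P1 := inferInstanceAs (DecidableEq (Option K))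

lemma card_P1 : Nat.card P1 = 18 := by
  rw [Nat.card_eq_fintype_card]; decide

/-- `GL₂` as permutations of the line. -/
def piGL : GL (Fin 2) K →* Equiv.Perm P1 := MulAction.toPermHom _ _

/-- `SL₂` as permutations of the line. -/
def piSL : Matrix.SpecialLinearGroup (Fin 2) K →* Equiv.Perm P1 :=
  piGL.comp Matrix.SpecialLinearGroup.toGL

/-- The matrix of an invertible `a b c d`. -/
noncomputable def mk (a b c d : K) (h : a * d - b * c ≠ 0) : GL (Fin 2) K :=
  Matrix.GeneralLinearGroup.mkOfDetNeZero !![a, b; c, d] (by rwa [Matrix.det_fin_two_of])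

lemma piGL_mk_some (a b c d : K) (h : a * d - b * c ≠ 0) (x : K) :
    piGL (mk a b c d h) (x : P1) =
      if c * x + d = 0 then (∞ : P1) else (((a * x + b) / (c * x + d) : K) : P1) := by
  show (mk a b c d h) • (x : P1) = _
  rw [smul_some_eq_ite]
  rfl

lemma piGL_mk_infty (a b c d : K) (h : a * d - b * c ≠ 0) :
    piGL (mk a b c d h) (∞ : P1) = if c = 0 then (∞ : P1) else ((a / c : K) : P1) := by
  show (mk a b c d h) • (∞ : P1) = _
  rw [smul_infty_eq_ite]
  rfl

/-- A permutation fixing `∞` and acting affinely comes from `GL₂`, and from `SL₂` if the slope is a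
square. -/
lemma affine_mem (y : Equiv.Perm P1) (a b : K) (ha : a ≠ 0) (hinf : y ∞ = ∞)
    (hy : ∀ x : K, y (x : P1) = ((a * x + b : K) : P1)) :
    y ∈ piGL.range ∧ (IsSquare a → y ∈ piSL.range) := by
  constructor
  · refine ⟨mk a b 0 1 (by simpa using ha), Equiv.ext fun p => ?_⟩
    rcases p with _ | x
    · show piGL _ (∞ : P1) = y ∞
      rw [piGL_mk_infty, hinf]; simp
    · show piGL _ (x : P1) = y (x : P1)
      rw [piGL_mk_some, hy]; simp
  · rintro ⟨s, rfl⟩
    have hs : s ≠ 0 := fun h => ha (by rw [h, mul_zero])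
    refine ⟨⟨!![s, b / s; 0, s⁻¹], by rw [Matrix.det_fin_two_of]; field_simp; ring⟩, ?_⟩
    have he : Matrix.SpecialLinearGroup.toGL
        (⟨!![s, b / s; 0, s⁻¹], by rw [Matrix.det_fin_two_of]; field_simp; ring⟩ :
          Matrix.SpecialLinearGroup (Fin 2) K) =
        mk s (b / s) 0 s⁻¹ (by field_simp; simp [hs]) := Units.ext rfl
    show piGL _ = y
    rw [he]
    refine Equiv.ext fun p => ?_
    rcases p with _ | x
    · show piGL _ (∞ : P1) = y ∞
      rw [piGL_mk_infty, hinf]; simp
    · show piGL _ (x : P1) = y (x : P1)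
      rw [piGL_mk_some, hy]
      simp [hs]
      field_simp

/-- `x ↦ 1/x` comes from `SL₂(17)`. -/
lemma inv_mem_range (y : Equiv.Perm P1) (h0 : y (0 : K) = ∞) (hinf : y ∞ = ((0 : K) : P1))
    (hy : ∀ x : K, x ≠ 0 → y (x : P1) = ((x⁻¹ : K) : P1)) : y ∈ piSL.range := by
  refine ⟨⟨!![0, 4; 4, 0], by rw [Matrix.det_fin_two_of]; decide⟩, ?_⟩
  have he : Matrix.SpecialLinearGroup.toGL
      (⟨!![0, 4; 4, 0], by rw [Matrix.det_fin_two_of]; decide⟩ :
        Matrix.SpecialLinearGroup (Fin 2) K) = mk 0 4 4 0 (by decide) := Units.ext rfl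
  show piGL _ = y
  rw [he]
  refine Equiv.ext fun p => ?_
  have h4 : (4 : K) ≠ 0 := by decide
  rcases p with _ | x
  · show piGL _ (∞ : P1) = y ∞
    rw [piGL_mk_infty, hinf, if_neg h4]; simp
  · show piGL _ (x : P1) = y (x : P1)
    rw [piGL_mk_some]
    by_cases hx : x = 0
    · subst hx; rw [h0]; simp
    · rw [hy x hx, if_neg (by simp [h4, hx])]
      congr 1
      field_simp
      ring

lemma mem_center_gl_of_fix {g : GL (Fin 2) K} (hg : piGL g = 1) :
    g ∈ Subgroup.center (GL (Fin 2) K) ∧ g 1 0 = 0 ∧ g 0 1 = 0 ∧ g 0 0 = g 1 1 := by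
  have hinf : g • (∞ : P1) = ∞ := Equiv.ext_iff.1 hg ∞
  have h10 : g 1 0 = 0 := smul_infty_eq_self_iff.1 hinf
  have h0 : g • ((0 : K) : P1) = ((0 : K) : P1) := Equiv.ext_iff.1 hg ((0 : K) : P1)
  have h1 : g • ((1 : K) : P1) = ((1 : K) : P1) := Equiv.ext_iff.1 hg ((1 : K) : P1)
  rw [smul_some_eq_ite] at h0 h1
  simp only [mul_zero, zero_add, mul_one, h10] at h0 h1
  have h11 : g 1 1 ≠ 0 := by
    intro h; rw [if_pos h] at h0; exact infty_ne_coe _ h0
  rw [if_neg h11, coe_eq_coe, div_eq_iff h11, zero_mul] at h0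
  rw [if_neg h11, coe_eq_coe, div_eq_iff h11, one_mul, h0, add_zero] at h1
  refine ⟨?_, h10, h0, h1⟩
  rw [Subgroup.mem_center_iff]
  intro u
  apply Units.ext
  ext i j
  fin_cases i <;> fin_cases j <;>
    simp [Units.val_mul, Matrix.mul_apply, Fin.sum_univ_two, h10, h0, h1, mul_comm]

lemma ker_piGL : piGL.ker = Subgroup.center (GL (Fin 2) K) := by
  apply le_antisymm (fun g hg => (mem_center_gl_of_fix hg).1)
  intro g hg
  -- central elements commute with the two unipotents and so are scalar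
  have hu := congrArg (fun u : GL (Fin 2) K => (u : Matrix (Fin 2) (Fin 2) K))
    (Subgroup.mem_center_iff.1 hg (mk 1 1 0 1 (by decide)))
  have hl := congrArg (fun u : GL (Fin 2) K => (u : Matrix (Fin 2) (Fin 2) K))
    (Subgroup.mem_center_iff.1 hg (mk 1 0 1 1 (by decide)))
  have a := congrFun (congrFun hu 0) 0
  have b := congrFun (congrFun hu 0) 1
  have c := congrFun (congrFun hl 0) 0
  simp [mk, Matrix.mul_apply, Fin.sum_univ_two] at a b c
  have h11 : g 1 1 ≠ 0 := by
    intro h
    apply g.det_ne_zero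
    rw [Matrix.det_fin_two, h]
    simp [a]
  refine Equiv.ext fun p => ?_
  rcases p with _ | x
  · show g • (∞ : P1) = ∞
    exact smul_infty_eq_self_iff.2 a
  · show g • (x : P1) = (x : P1)
    have h01 : g 0 1 = 0 := by linear_combination (norm := skip) c; ring
    have h00 : g 0 0 = g 1 1 := by linear_combination (norm := skip) -b; ring
    rw [smul_some_eq_ite, a, h01, h00]
    simp [h11]

lemma ker_piSL : piSL.ker = Subgroup.center (Matrix.SpecialLinearGroup (Fin 2) K) := by
  apply le_antisymm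
  · intro g hg
    obtain ⟨hc, -⟩ := mem_center_gl_of_fix (g := Matrix.SpecialLinearGroup.toGL g) hg
    rw [Subgroup.mem_center_iff] at hc ⊢
    intro u
    exact Matrix.SpecialLinearGroup.toGL_injective (by rw [map_mul, map_mul]; exact hc _)
  · intro g hg
    have hT : Matrix.SpecialLinearGroup.toGL g ∈ Subgroup.center (GL (Fin 2) K) := by
      obtain ⟨r, -, hr⟩ := Matrix.SpecialLinearGroup.mem_center_iff.1 hg
      rw [Subgroup.mem_center_iff]
      intro u
      apply Units.ext
      show (u : Matrix (Fin 2) (Fin 2) K) * (g : Matrix (Fin 2) (Fin 2) K) =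
        (g : Matrix (Fin 2) (Fin 2) K) * (u : Matrix (Fin 2) (Fin 2) K)
      rw [← hr]
      exact ((Matrix.scalar_commute r (fun r' => mul_comm r r') _).eq).symm
    rw [← ker_piGL] at hT
    exact hT

end CfsgLib.Sylow1817
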